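import Cfsg.Agent.H890.A7.SixRel
import Cfsg.Agent.H890.A7.Kill

/-!
# `6.A₇` : involutions do not lift to involutions (helper825)

`neg_of` : if `-1 ∈ P` and `k₀` is a lift of `(3 4)(5 6)` with `k₀² = e`, `e² = 1`, then `e = -1` (transfer to a Sylow
`2`-subgroup).
-/

set_option autoImplicit false
set_option linter.unusedSectionVars false

namespace Cfsg.Agent.H825.A7x

open Cfsg Cfsg.Geo Matrix Cfsg.Agent.H913.N6 Cfsg.Agent.H890.A7
open Equiv Equiv.Perm
open Cfsg.Agent.H890.Y3 (r3 r3' g4)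
open Cfsg.Agent.H915.LD (Core Soc toSoc tr)

/-- an involution inverting `g4` -/
def s4 : alternatingGroup (Fin 7) := ⟨c[3, 4] * c[2, 5], mem_alternatingGroup.2 (by decide)⟩

theorem s4_g4 : s4 * g4 * s4⁻¹ = g4⁻¹ := by decide +kernel

/-- a Sylow `2`-subgroup -/
def f8 : DihedralGroup 4 →* alternatingGroup (Fin 7) :=
  MonoidHom.mk' (fun x => match x with
    | .r i => g4 ^ i.val
    | .sr i => s4 * g4 ^ i.val) (by decide +kernel)

theorem f8_r (i : ZMod 4) : f8 (.r i) = g4 ^ i.val := rfl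
theorem f8_sr (i : ZMod 4) : f8 (.sr i) = s4 * g4 ^ i.val := rfl

theorem f8_injective : Function.Injective f8 := by
  rw [injective_iff_map_eq_one]
  decide +kernel

theorem index_f8 : f8.range.index = 315 := by
  have h1 : Nat.card f8.range = 8 := by
    rw [← Nat.card_congr (MonoidHom.ofInjective f8_injective).toEquiv, DihedralGroup.nat_card]
  have h2 := f8.range.card_mul_index
  rw [h1, nat_card_alternatingGroup, Nat.card_eq_fintype_card, Fintype.card_fin] at h2
  have h3 : Nat.factorial 7 / 2 = 8 * 315 := by decide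
  rw [h3] at h2
  exact Nat.eq_of_mul_eq_mul_left (by norm_num) h2

/-- transfer: a central element of a perfect group: its power by the index of `T` lies in `E ≥ [T, T]` (after helper930) -/
theorem pow_index_mem' {X : Type*} [Group X] [Finite X] (hX : commutator X = ⊤) {T E : Subgroup X}
    (hcom : ∀ x ∈ T, ∀ y ∈ T, x * y * x⁻¹ * y⁻¹ ∈ E) {c : X} (hc : ∀ x, c * x = x * c) : c ^ T.index ∈ E := by
  have key : ∀ (k : ℕ) (g₀ : X), g₀⁻¹ * c ^ k * g₀ ∈ T → g₀⁻¹ * c ^ k * g₀ = c ^ k := by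
    intro k g₀ _
    have h2 : Commute c g₀ := hc g₀
    rw [mul_assoc, (h2.pow_left k).eq]; group
  have h3 := MonoidHom.transfer_eq_pow (Abelianization.of (G := T)) c key
  have h4 : MonoidHom.transfer (Abelianization.of (G := T)) c = 1 :=
    (Abelianization.commutator_subset_ker _) (by rw [hX]; exact Subgroup.mem_top _)
  rw [h4] at h3
  have h5 : (⟨c ^ T.index, MonoidHom.transfer_eq_pow_aux c key⟩ : T) ∈ commutator T := by
    rw [← Abelianization.ker_of, MonoidHom.mem_ker]; exact h3.symm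
  have h6 : commutator T ≤ E.subgroupOf T := by
    rw [commutator_def, Subgroup.commutator_le]
    intro x _ y _
    rw [Subgroup.mem_subgroupOf, commutatorElement_def]
    exact hcom x x.2 y y.2
  exact Subgroup.mem_subgroupOf.mp (h6 h5)

section grp

variable {G : Type*} [Group G] {g y w : G}

theorem pow_comm_aux (hg : w * g = g * w) (hy : w * y = y * w) (h : g * y = w * (y * g)) (i j : ℕ) :
    g ^ i * y ^ j = w ^ (i * j) * (y ^ j * g ^ i) := by
  have h1 : ∀ j, g * y ^ j = w ^ j * (y ^ j * g) := by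
    intro j
    induction j with
    | zero => simp
    | succ j ih =>
      have cw : Commute (w ^ j) (y) := Commute.pow_left hy j
      have cw' : Commute w (y ^ j) := Commute.pow_right hy j
      calc g * y ^ (j + 1) = (g * y ^ j) * y := by rw [pow_succ, mul_assoc]
        _ = w ^ j * (y ^ j * (g * y)) := by rw [ih]; simp only [mul_assoc]
        _ = w ^ j * ((y ^ j * w) * (y * g)) := by rw [h]; simp only [mul_assoc]
        _ = w ^ j * ((w * y ^ j) * (y * g)) := by rw [cw'.eq]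
        _ = w ^ (j + 1) * (y ^ (j + 1) * g) := by rw [pow_succ, pow_succ]; simp only [mul_assoc]
  induction i with
  | zero => simp
  | succ i ih =>
    have cw : Commute g (w ^ (i * j)) := (Commute.pow_left hg _).symm
    calc g ^ (i + 1) * y ^ j = g * (g ^ i * y ^ j) := by rw [pow_succ', mul_assoc]
      _ = (g * w ^ (i * j)) * (y ^ j * g ^ i) := by rw [ih]; simp only [mul_assoc]
      _ = w ^ (i * j) * ((g * y ^ j) * g ^ i) := by rw [cw.eq]; simp only [mul_assoc]
      _ = w ^ (i * j) * (w ^ j * (y ^ j * g) * g ^ i) := by rw [h1]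
      _ = w ^ ((i + 1) * j) * (y ^ j * g ^ (i + 1)) := by
        rw [add_mul, one_mul, pow_add, pow_succ']; simp only [mul_assoc]

theorem comm_aux (hg : w * g = g * w) (hy : w * y = y * w) (h : g * y = w * (y * g)) (i j i' j' : ℕ) :
    (y ^ j * g ^ i) * (y ^ j' * g ^ i') * (y ^ j * g ^ i)⁻¹ * (y ^ j' * g ^ i')⁻¹ ∈ Subgroup.zpowers w := by
  have e : ∀ i j i' j' : ℕ, (y ^ j * g ^ i) * (y ^ j' * g ^ i') = w ^ (i * j') * (y ^ (j + j') * g ^ (i + i')) := by
    intro i j i' j'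
    have cw : Commute (y ^ j) (w ^ (i * j')) := ((Commute.pow_left hy _).pow_right _).symm
    calc (y ^ j * g ^ i) * (y ^ j' * g ^ i') = y ^ j * (g ^ i * y ^ j') * g ^ i' := by simp only [mul_assoc]
      _ = (y ^ j * w ^ (i * j')) * (y ^ j' * g ^ i) * g ^ i' := by
        rw [pow_comm_aux hg hy h]; simp only [mul_assoc]
      _ = _ := by rw [cw.eq, pow_add, pow_add]; simp only [mul_assoc]
  have e2 : (y ^ j * g ^ i) * (y ^ j' * g ^ i') * (y ^ j * g ^ i)⁻¹ * (y ^ j' * g ^ i')⁻¹ =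
      ((y ^ j * g ^ i) * (y ^ j' * g ^ i')) * ((y ^ j' * g ^ i') * (y ^ j * g ^ i))⁻¹ := by
    rw [_root_.mul_inv_rev ((y ^ j' * g ^ i'))]; simp only [mul_assoc]
  rw [e2, e, e, add_comm j' j, add_comm i' i]
  have e3 : w ^ (i * j') * (y ^ (j + j') * g ^ (i + i')) * (w ^ (i' * j) * (y ^ (j + j') * g ^ (i + i')))⁻¹ =
      w ^ (i * j') * (w ^ (i' * j))⁻¹ := by group
  rw [e3]
  exact mul_mem (pow_mem (Subgroup.mem_zpowers w) _) (inv_mem (pow_mem (Subgroup.mem_zpowers w) _))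

theorem central_comm {z z' : G} (hz : ∀ x, z * x = x * z) (hz' : ∀ x, z' * x = x * z') (u v : G) :
    z * u * (z' * v) * (z * u)⁻¹ * (z' * v)⁻¹ = u * v * u⁻¹ * v⁻¹ := by
  calc z * u * (z' * v) * (z * u)⁻¹ * (z' * v)⁻¹ = z * (u * (z' * v) * u⁻¹) * z⁻¹ * (v⁻¹ * z'⁻¹) := by group
    _ = u * z' * (v * u⁻¹ * v⁻¹) * z'⁻¹ := by rw [hz, mul_inv_cancel_right]; simp only [mul_assoc]
    _ = z' * (u * v * u⁻¹ * v⁻¹) * z'⁻¹ := by rw [← hz' u]; simp only [mul_assoc]
    _ = _ := by rw [hz', mul_inv_cancel_right]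

end grp

section neg

variable {ι : Type} [Fintype ι] [DecidableEq ι] [Nonempty ι] {F : Type*} [Field F] {P : Subgroup (GL ι F)}
  {C : Cov P (alternatingGroup (Fin 7))}

theorem neg_of [Finite F] (hC : Core P) (hZ : Z6 P) (h2 : (2 : F) ≠ 0) (hneg : (sc (-1 : Fˣ) : GL ι F) ∈ P)
    {k₀ : GL ι F} {e : Fˣ} (hk₀ : C.L k₀ kk) (he : e ^ 2 = 1) (hk2 : k₀ ^ 2 = sc e) : e = -1 := by
  by_contra hne
  have h1 : e = 1 := by
    have h3 : (e : F) ^ 2 = 1 := by rw [← Units.val_pow_eq_pow_val, he, Units.val_one]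
    have h4 : ((e : F) - 1) * ((e : F) + 1) = 0 := by linear_combination h3
    rcases mul_eq_zero.1 h4 with h | h
    · exact Units.ext (sub_eq_zero.1 h)
    · exact absurd (Units.ext (by rw [eq_neg_of_add_eq_zero_left h, Units.val_neg, Units.val_one])) hne
  rw [h1] at he hk2
  obtain ⟨ω, a, b, k, g, hrel, La, Lb, Lk, Lg, hωP⟩ := exists_rel hZ he hk₀ hk2
  have hg4 : g ^ 4 = 1 := by rw [hrel.g4, sc_one]
  obtain ⟨y, Ly⟩ := C.exists_lift s4
  obtain ⟨c, hcP, hc⟩ := (L_congr (Lg.conj Ly) s4_g4).exists_sc Lg.inv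
  have hc4 : c ^ 4 = 1 := by
    have h3 : (y * g * y⁻¹) ^ 4 = 1 := by rw [conj_pow, hg4, mul_one, mul_inv_cancel]
    rw [hc, (sc_commute _ _).mul_pow, inv_pow, hg4, inv_one, mul_one, ← sc_pow, ← sc_one] at h3
    exact sc_inj h3
  have hc2 : c ^ 2 = 1 := by
    have h3 : c ^ 6 = c ^ 4 * c ^ 2 := by rw [← pow_add]
    rw [hZ c hcP, hc4, one_mul] at h3
    exact h3.symm
  -- the commutator
  obtain ⟨w, hw⟩ : ∃ w, w = sc c * g ^ 2 := ⟨_, rfl⟩
  have hwg : w * g = g * w := by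
    rw [hw, mul_assoc, ← pow_succ, ← mul_assoc g, ← sc_comm c g, mul_assoc, ← pow_succ']
  have hyg : y * g = sc c * (g⁻¹ * y) := by
    rw [← mul_assoc, ← hc]; group
  have hgi : g⁻¹ = g ^ 2 * g := by
    rw [← pow_succ, inv_eq_iff_mul_eq_one, ← pow_succ']; exact hg4
  have hcc : (sc c : GL ι F) * sc c = 1 := by rw [← sc_mul, ← sq, hc2, sc_one]
  have hgy : g * y = sc c * (y * g⁻¹) := by
    have h3 : y = sc c * (g⁻¹ * y * g⁻¹) := by
      calc y = (y * g) * g⁻¹ := by group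
        _ = _ := by rw [hyg]; simp only [mul_assoc]
    calc g * y = g * (sc c * (g⁻¹ * y * g⁻¹)) := by rw [← h3]
      _ = sc c * (y * g⁻¹) := by
        rw [← mul_assoc g, ← sc_comm c g]; group
  have hy2 : y * g ^ 2 * y⁻¹ = g ^ 2 := by
    have h3 : (y * g * y⁻¹) ^ 2 = g ^ 2 := by
      rw [hc, (sc_commute _ _).mul_pow, ← sc_pow, hc2, sc_one, one_mul, inv_pow, inv_eq_iff_mul_eq_one, ← pow_add]
      exact hg4
    rw [conj_pow] at h3
    exact h3
  have hwy : w * y = y * w := by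
    rw [hw, ← mul_assoc y, ← sc_comm c y, mul_assoc, mul_assoc]
    congr 1
    rw [← eq_mul_inv_iff_mul_eq.1 hy2.symm]
  have hrel2 : g * y = w * (y * g) := by
    rw [hgy, hgi, ← mul_assoc w, hwy, hw, ← mul_assoc y (sc c), ← sc_comm c y]
    simp only [mul_assoc]
  -- transfer
  have form : ∀ x : P, x ∈ f8.range.comap C.π → ∃ (d : Fˣ) (i j : ℕ), (x : GL ι F) = sc d * (y ^ j * g ^ i) := by
    intro x hx
    obtain ⟨m, hm⟩ := hx
    have h1 : C.L (x : GL ι F) (f8 m) := ⟨x.2, hm.symm⟩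
    cases m with
    | r i =>
      rw [f8_r] at h1
      obtain ⟨d, -, hd⟩ := h1.exists_sc (Lg.pow i.val)
      exact ⟨d, i.val, 0, by rw [hd, pow_zero, one_mul]⟩
    | sr i =>
      rw [f8_sr] at h1
      obtain ⟨d, -, hd⟩ := h1.exists_sc (Ly.mul (Lg.pow i.val))
      exact ⟨d, i.val, 1, by rw [hd, pow_one]⟩
  have hwP : w ∈ P := by rw [hw]; exact mul_mem hcP (pow_mem Lg.mem 2)
  have h3 := pow_index_mem' hC.commutator_top (T := f8.range.comap C.π)
    (E := (Subgroup.zpowers w).subgroupOf P) (c := ⟨sc (-1), hneg⟩) (by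
      intro x hx x' hx'
      obtain ⟨d, i, j, h1⟩ := form x hx
      obtain ⟨d', i', j', h1'⟩ := form x' hx'
      rw [Subgroup.mem_subgroupOf]
      simp only [Subgroup.coe_mul, Subgroup.coe_inv]
      rw [h1, h1']
      rw [central_comm (sc_comm d) (sc_comm d')]
      exact comm_aux hwg hwy hrel2 i j i' j') (fun x => Subtype.ext (sc_comm _ (x : GL ι F)))
  rw [Subgroup.index_comap_of_surjective _ C.surj, index_f8, Subgroup.mem_subgroupOf] at h3
  obtain ⟨n, hn⟩ := h3
  have hww : w * w = 1 := by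
    rw [hw, ← sq, (sc_commute _ _).mul_pow, ← sc_pow, hc2, sc_one, one_mul, ← pow_mul]
    exact hg4
  have hn' : w ^ n = sc (-1) := by
    have h4 : ((⟨sc (-1), hneg⟩ : P) ^ 315 : P) = (⟨sc (-1), hneg⟩ : P) := by
      apply Subtype.ext
      show (sc (-1) : GL ι F) ^ 315 = sc (-1)
      rw [← sc_pow]
      congr 1
      rw [show 315 = 2 * 157 + 1 from rfl, pow_succ, pow_mul]
      simp
    rw [h4] at hn
    exact hn
  have h11 : (-1 : Fˣ) ≠ 1 := by
    intro h
    apply h2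
    have h5 : ((-1 : Fˣ) : F) = 1 := by rw [h, Units.val_one]
    rw [Units.val_neg, Units.val_one] at h5
    linear_combination -h5
  have hw2 : w ^ (2 : ℤ) = 1 := by
    have : w ^ (2 : ℤ) = w * w := by rw [show (2 : ℤ) = ((2 : ℕ) : ℤ) from rfl, zpow_natCast, sq]
    rw [this, hww]
  rcases Int.even_or_odd' n with ⟨m, hm | hm⟩
  · rw [hm, _root_.zpow_mul, hw2, _root_.one_zpow, ← sc_one] at hn'
    exact h11 (sc_inj hn').symm
  · rw [hm, _root_.zpow_add, _root_.zpow_mul, hw2, _root_.one_zpow, one_mul, _root_.zpow_one, hw] at hn'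
    -- `g²` is a scalar
    have h5 : C.L (g ^ 2) 1 := by
      rw [Cov.L.one_iff]
      refine ⟨pow_mem Lg.mem 2, c * (-1), ?_⟩
      rw [sc_mul, ← hn', ← mul_assoc, hcc, one_mul]
    have h6 := (Lg.pow 2).unique h5
    revert h6
    decide +kernel

end neg

end Cfsg.Agent.H825.A7x
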