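import Cfsg.Agent.H825.A7x.Blk3
import Cfsg.Agent.H825.A7x.Neg
import Cfsg.Agent.S2116
import Cfsg.Agent.H930.A7s.LSign

/-!
# `6.A₇` in dimension twelve: the normal form (helper825)

* `exists_frame` : the lifts of `r3, r3', kk, g4` in terms of `2 × 2` matrices `X, Z, N` satisfying `Eqs`;
* `twelve_six` : if `P` contains scalars of order three and `-1`, then `p = 5`.
-/

set_option autoImplicit false
set_option linter.unusedSectionVars false

namespace Cfsg.Agent.H825.A7x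

open Cfsg Cfsg.Geo Matrix Cfsg.Agent.H913.N6 Cfsg.Agent.H890.A7
open Equiv Equiv.Perm
open Cfsg.Agent.H890.Y3 (r3 r3' g4)
open Cfsg.Agent.H915.LD (Core Soc toSoc tr)

section gen

variable {F : Type*} [Field F] {R : Type*} [Ring R] [Algebra F R]

theorem dg_a3' (ω : F) (Z : R) : dg Z Z Z * a3 ω = a3 ω * dg Z Z Z := by
  obtain ⟨X00, X01, X02, X10, X11, X12, X20, X21, X22⟩ := dg_entries Z Z Z
  ext1 i j
  rw [mul_a3, a3_mul]
  rcases fin3 i with rfl | rfl | rfl <;> rcases fin3 j with rfl | rfl | rfl <;>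
    simp only [X00, X01, X02, X10, X11, X12, X20, X21, X22, smul_zero]

theorem dg_b3' (Z : R) : dg Z Z Z * b3 = b3 * dg Z Z Z := by
  ext1 i j
  rw [mul_b3]
  have e2 := b3_mul (dg Z Z Z) (i + 2) j
  rw [show i + 2 + 1 = i by rcases fin3 i with rfl | rfl | rfl <;> rfl] at e2
  rw [e2]
  rcases fin3 i with rfl | rfl | rfl <;> rcases fin3 j with rfl | rfl | rfl <;> rfl

theorem dg_dg' {Z d₀ d₁ d₂ : R} (h0 : Z * d₀ = d₀ * Z) (h1 : Z * d₁ = d₁ * Z) (h2 : Z * d₂ = d₂ * Z) :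
    dg Z Z Z * dg d₀ d₁ d₂ = dg d₀ d₁ d₂ * dg Z Z Z := by
  rw [dg_mul', dg_mul', h0, h1, h2]

theorem dg_gm' {ω : F} (hω : ω ^ 2 + ω + 1 = 0) {Z x : R} (hx : Z * x = x * Z) :
    dg Z Z Z * gm ω x = gm ω x * dg Z Z Z := by
  obtain ⟨X00, X01, X02, X10, X11, X12, X20, X21, X22⟩ := dg_entries Z Z Z
  obtain ⟨a00, a01, a02, a10, a11, a12, a20, a21, a22⟩ := gm_entries hω x
  apply ext3 <;> simp only [mul3, a00, a01, a02, a10, a11, a12, a20, a21, a22, X00, X01, X02, X10, X11, X12, X20,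
    X21, X22, hx, mul_zero, zero_mul, add_zero, zero_add, mul_smul_comm, smul_mul_assoc, smul_zero]

end gen

section core

variable {ι : Type} [Fintype ι] [DecidableEq ι] {F : Type*} [Field F] {P : Subgroup (GL ι F)}

local notation "MI" => Matrix ι ι F

/-- lifts of generators and the scalars of `P` generate `P` -/
theorem le_of_gens' {T : Type*} [Group T] (C : Cov P T) {S : Set T} (hS : Subgroup.closure S = ⊤)
    {Y : Subgroup (GL ι F)} (hY : ∀ s ∈ S, ∃ y ∈ Y, C.L y s) (hsc : ∀ c, sc c ∈ P → sc c ∈ Y) : P ≤ Y := by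
  have key : ∀ σ : T, ∃ y ∈ Y, C.L y σ := by
    intro σ
    have h1 : σ ∈ Subgroup.closure S := by rw [hS]; exact Subgroup.mem_top _
    induction h1 using Subgroup.closure_induction with
    | mem x hx => exact hY x hx
    | one => exact ⟨1, one_mem Y, Cov.L.one⟩
    | mul x y _ _ h h' =>
      obtain ⟨u, hu, hu'⟩ := h
      obtain ⟨v, hv, hv'⟩ := h'
      exact ⟨u * v, mul_mem hu hv, hu'.mul hv'⟩
    | inv x _ h =>
      obtain ⟨u, hu, hu'⟩ := h
      exact ⟨u⁻¹, inv_mem hu, hu'.inv⟩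
  intro x hx
  obtain ⟨σ, hσ⟩ := Cov.L.of_mem C hx
  obtain ⟨y, hy, hy'⟩ := key σ
  obtain ⟨c, hc, rfl⟩ := hσ.exists_sc hy'
  exact mul_mem (hsc c hc) hy

/-- the lifts of the two `3`-cycles do not commute -/
theorem nc_of [Nonempty ι] [Finite F] (hC : Core P) {C : Cov P (alternatingGroup (Fin 7))}
    (hz : ∃ c : Fˣ, c ≠ 1 ∧ c ^ 3 = 1 ∧ sc c ∈ P) {a b : GL ι F} (La : C.L a r3) (Lb : C.L b r3') : a * b ≠ b * a := by
  intro hab
  obtain ⟨c, hc1, hc3, hc⟩ := hz
  have hcomm : Commute a b := hab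
  let S : Subgroup P := f9.range.comap C.π
  have hS : ∀ x ∈ S, ∀ y ∈ S, x * y = y * x := by
    have form : ∀ x ∈ S, ∃ (d : Fˣ) (i j : ℕ), (x : GL ι F) = sc d * (a ^ i * b ^ j) := by
      intro x hx
      obtain ⟨m, hm⟩ := hx
      have h1 : C.L (x : GL ι F) (r3 ^ (m.toAdd.1).val * r3' ^ (m.toAdd.2).val) := ⟨x.2, hm.symm⟩
      have h2 := (La.pow (m.toAdd.1).val).mul (Lb.pow (m.toAdd.2).val)
      obtain ⟨d, -, hd⟩ := h1.exists_sc h2
      exact ⟨d, _, _, hd⟩
    intro x hx y hy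
    obtain ⟨d, i, j, h1⟩ := form x hx
    obtain ⟨d', i', j', h2⟩ := form y hy
    apply Subtype.ext
    rw [Subgroup.coe_mul, Subgroup.coe_mul, h1, h2]
    have e1 : Commute (a ^ i * b ^ j) (a ^ i' * b ^ j') := by
      apply Commute.mul_left
      · exact Commute.mul_right (Commute.pow_pow (Commute.refl a) _ _) (hcomm.pow_pow _ _)
      · exact Commute.mul_right (hcomm.symm.pow_pow _ _) (Commute.pow_pow (Commute.refl b) _ _)
    have e2 : ∀ (e : Fˣ) (z : GL ι F), Commute (sc e) z := fun e z => sc_comm e z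
    exact ((e2 d _).mul_left ((e2 d' _).symm.mul_right e1)).eq
  have hzS : (⟨sc c, hc⟩ : P) ∈ S := by
    show C.π _ ∈ f9.range
    rw [(C.ker ⟨sc c, hc⟩).2 (sc_mem_scalars c)]
    exact one_mem _
  have h1 := pow_index_mem hC.commutator_top S hS hzS (fun x => Subtype.ext (sc_comm c (x : GL ι F)))
  have h2 : S.index = 280 := by
    rw [← index_f9]
    exact Subgroup.index_comap_of_surjective _ C.surj
  rw [h2] at h1
  have h3 : sc (c ^ 280) = (1 : GL ι F) := by
    rw [sc_pow]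
    exact congrArg Subtype.val h1
  rw [← sc_one] at h3
  have h4 := sc_inj h3
  apply hc1
  have h6 : c ^ 280 = (c ^ 3) ^ 93 * c := by rw [← pow_mul, ← pow_succ]
  rw [h6, hc3, one_pow, one_mul] at h4
  exact h4

/-- `l² = 1` -/
theorem l_sq [Nonempty ι] {e ω l : Fˣ} {a b k g : GL ι F} (h : Rel e ω a b k g) (he : e ^ 2 = 1)
    (hl : (k * (g * k * g⁻¹)) ^ 3 = sc l * g ^ 2) : l ^ 2 = 1 := by
  obtain ⟨K, hK⟩ : ∃ K, K = g * k * g⁻¹ := ⟨_, rfl⟩
  rw [← hK] at hl
  have kk : k * k = sc e := by rw [← sq]; exact h.k2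
  have KK : K * K = sc e := by
    rw [← sq, hK, conj_pow, h.k2, ← sc_comm, mul_inv_cancel_right]
  have ee : (sc e : GL ι F) * sc e = 1 := by rw [← sc_mul, ← sq, he, sc_one]
  have h1 : k * K * (K * k) = 1 := by
    calc k * K * (K * k) = k * (K * K) * k := by simp only [mul_assoc]
      _ = sc e * (k * k) := by rw [KK, ← sc_comm, mul_assoc]
      _ = 1 := by rw [kk, ee]
  have h2 : k * (k * K) * k⁻¹ = (k * K)⁻¹ := by
    rw [mul_eq_one_iff_inv_eq.1 h1, mul_inv_eq_iff_eq_mul]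
    calc k * (k * K) = (k * k) * K := by rw [mul_assoc]
      _ = K * sc e := by rw [kk, sc_comm]
      _ = K * k * k := by rw [← kk, mul_assoc]
  have h3 : k * (sc l * g ^ 2) * k⁻¹ = (sc l * g ^ 2)⁻¹ := by
    rw [← hl, ← conj_pow, h2, inv_pow]
  -- `k g² k⁻¹ = e g²`
  have h4 : k * g ^ 2 = sc e * (g ^ 2 * k) := by
    rw [h.sk, ← mul_assoc, ee, one_mul]
  have h5 : k * (sc l * g ^ 2) * k⁻¹ = sc (e * l) * g ^ 2 := by
    rw [← mul_assoc k, ← sc_comm l k, mul_assoc (sc l), h4, sc_mul, sc_comm e (sc l)]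
    group
  have h6 : sc (e * l * l * e) = (1 : GL ι F) := by
    have h7 : sc (e * l) * g ^ 2 * (sc l * g ^ 2) = 1 := by rw [← h5, h3, inv_mul_cancel]
    have h8 : sc (e * l) * g ^ 2 * (sc l * g ^ 2) = sc (e * l * l * e) := by
      calc sc (e * l) * g ^ 2 * (sc l * g ^ 2) = sc (e * l) * (g ^ 2 * sc l) * g ^ 2 := by simp only [mul_assoc]
        _ = sc (e * l) * sc l * (g ^ 2 * g ^ 2) := by rw [← sc_comm l]; simp only [mul_assoc]
        _ = _ := by rw [← pow_add, h.g4, ← sc_mul, ← sc_mul]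
    rw [← h8, h7]
  rw [← sc_one] at h6
  have h7 := sc_inj h6
  have h8 : e * l * l * e = e ^ 2 * l ^ 2 := by simp only [sq]; ac_rfl
  rw [h8, he, one_mul] at h7
  exact h7

/-- the relations as matrices -/
theorem rel_mat' [Nonempty ι] {e ω : Fˣ} {a b k g : GL ι F} (h : Rel e ω a b k g) (he : e ^ 2 = 1) :
    (g : MI) * a = b * g ∧ (a : MI) * (g * b) = g ∧ (k : MI) * k = (e : F) • 1 ∧
      ((g : MI) * g) * (g * g) = (e : F) • 1 ∧
      (k : MI) * a = a * k ∧ ((g : MI) * g) * k = (e : F) • (k * (g * g)) ∧ (k : MI) * b * k * b = b * (b * k) ∧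
      ∃ L : F, L ^ 2 = 1 ∧ ((k : MI) * (g * k * (g * (g * g)))) ^ 3 = L • (g * g) := by
  refine ⟨congrArg (fun g : GL ι F => (g : MI)) h.ga, ?_, ?_, ?_,
    congrArg (fun g : GL ι F => (g : MI)) h.ka, ?_, ?_, ?_⟩
  · have h1 : a * (g * b) = g := by rw [h.gb, mul_inv_cancel_left]
    exact congrArg (fun g : GL ι F => (g : MI)) h1
  · have h1 : k * k = sc e := by rw [← sq, h.k2]
    have h2 := congrArg (fun g : GL ι F => (g : MI)) h1
    simp only [Units.val_mul, coe_sc] at h2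
    exact h2
  · have h1 : (g * g) * (g * g) = sc e := by rw [← sq, ← sq, ← pow_mul, h.g4]
    have h2 := congrArg (fun g : GL ι F => (g : MI)) h1
    simp only [Units.val_mul, coe_sc] at h2
    exact h2
  · have h1 : (g * g) * k = sc e * (k * (g * g)) := by rw [← sq, h.sk]
    have h2 := congrArg (fun g : GL ι F => (g : MI)) h1
    simp only [Units.val_mul, coe_sc, Matrix.smul_mul, Matrix.one_mul] at h2
    exact h2
  · have h1 : k * b * k * b = b * (b * k) := by
      have h2 := congrArg (fun z => z * b ^ 2) h.v4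
      simp only [inv_mul_cancel_right] at h2
      calc k * b * k * b = k * (b * k * b⁻¹) * b ^ 2 := by group
        _ = b ^ 2 * k := h2
        _ = b * (b * k) := by rw [sq, mul_assoc]
    exact congrArg (fun g : GL ι F => (g : MI)) h1
  · obtain ⟨l, hl⟩ := h.r6
    have hl2 := l_sq h he hl
    have h1 : (k * (g * k * (g * (g * g)))) ^ 3 = sc (e ^ 3 * l) * (g * g) := by
      have h2 : g * (g * g) = sc e * g⁻¹ := by
        rw [← h.g4, pow_succ, pow_succ, sq, mul_assoc g g g, mul_inv_cancel_right]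
      rw [h2]
      have h3 : k * (g * k * (sc e * g⁻¹)) = sc e * (k * (g * k * g⁻¹)) := by
        rw [← mul_assoc (g * k), ← sc_comm e (g * k), mul_assoc (sc e), ← mul_assoc k (sc e), ← sc_comm e k]
        simp only [mul_assoc]
      rw [h3, (sc_commute _ _).mul_pow, hl, ← sc_pow, sc_mul, sq g, mul_assoc]
    refine ⟨((e ^ 3 * l : Fˣ) : F), ?_, ?_⟩
    · rw [← Units.val_pow_eq_pow_val, mul_pow, hl2, mul_one, ← pow_mul, mul_comm 3 2, pow_mul, he, one_pow,
        Units.val_one]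
    · have h2 := congrArg (fun g : GL ι F => (g : MI)) h1
      simp only [Units.val_pow_eq_pow_val, Units.val_mul, coe_sc, Matrix.smul_mul, Matrix.one_mul] at h2
      simp only [Units.val_pow_eq_pow_val, Units.val_mul]
      exact h2

/-- the scalars of `P` have order dividing six and `n` -/
theorem z6_of' [Nonempty ι] [Finite F] (hC : Core P) (e : Soc P ≃* alternatingGroup (Fin 7)) : Z6 P := by
  intro c hc
  have h1 := hC.card_scalars_dvd e (S2116.result 7 (Or.inr rfl))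
  rw [show Nat.card (Multiplicative (ZMod 6)) = 6 from Nat.card_zmod 6] at h1
  have hz : (⟨sc c, hc⟩ : P) ∈ (scalars ι F).subgroupOf P := sc_mem_scalars c
  have h2 : (⟨sc c, hc⟩ : P) ^ 6 = 1 := by
    have h4 : (⟨⟨sc c, hc⟩, hz⟩ : (scalars ι F).subgroupOf P) ^ Nat.card ((scalars ι F).subgroupOf P) = 1 :=
      pow_card_eq_one'
    have h5 : (⟨sc c, hc⟩ : P) ^ Nat.card ((scalars ι F).subgroupOf P) = 1 := congrArg Subtype.val h4
    obtain ⟨m, hm⟩ := h1
    rw [hm, pow_mul, h5, one_pow]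
  have h2' : (sc (c ^ 6) : GL ι F) = sc 1 := by rw [sc_one, sc_pow]; exact congrArg Subtype.val h2
  exact sc_inj h2'

set_option maxHeartbeats 1600000 in
/-- **The data on the multiplicity space of `3^{1+2}`.** -/
theorem exists_dat [Nonempty ι] [Finite F] (hC : Core P) (C : Cov P (alternatingGroup (Fin 7))) (hZ : Z6 P)
    (hz : ∃ c : Fˣ, c ≠ 1 ∧ c ^ 3 = 1 ∧ sc c ∈ P) (h2 : (2 : F) ≠ 0) (hneg : (sc (-1 : Fˣ) : GL ι F) ∈ P) :
    ∃ (ω : Fˣ) (a b k g : GL ι F) (L : F) (W : Submodule F (ι → F)) 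
      (ψ : Matrix ι ι F ≃ₐ[F] Matrix (Fin 3) (Fin 3) (Module.End F W)) (x d₀ d₁ d₂ t : Module.End F W),
      C.L a r3 ∧ C.L b r3' ∧ C.L k kk ∧ C.L g g4 ∧ ψ a = a3 (ω : F) ∧ ψ b = b3 ∧ ψ k = dg d₀ d₁ d₂ ∧ ψ g = gm (ω : F) x ∧
      Dat (ω : F) L x d₀ d₁ d₂ t ∧ Fintype.card ι = 3 * Module.finrank F W ∧ L = 1 := by
  classical
  obtain ⟨k₀, e, hk₀, he, hk2, -⟩ := exists_k (C := C) hZ
  have hen := neg_of hC hZ h2 hneg hk₀ he hk2
  rw [hen] at he hk2
  obtain ⟨ω, a, b, k, g, hrel, La, Lb, Lk, Lg, hωP⟩ := exists_rel (C := C) hZ he hk₀ hk2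
  have hω1 : ω ≠ 1 := by
    rintro rfl
    apply nc_of hC hz La Lb
    rw [hrel.ab, sc_one, one_mul]
  have hω3' : (ω : F) ^ 3 = 1 := by rw [← Units.val_pow_eq_pow_val, hrel.ω3, Units.val_one]
  have hω1' : (ω : F) ≠ 1 := fun h => hω1 (Units.ext h)
  have hω := omega_sum hω3' hω1'
  have h3 := three_ne hω3' hω1'
  obtain ⟨ga, gb, kk2, g4', ka, sk, v4, L, hL2, r6⟩ := rel_mat' hrel he
  have hL1 : L = 1 := H930.A7s.rel_L hZ hrel Lk Lg r6
  have neg1 : ∀ Y : MI, (((-1 : Fˣ) : F)) • Y = -Y := fun Y => by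
    rw [Units.val_neg, Units.val_one, neg_smul, one_smul]
  rw [neg1] at kk2 g4' sk
  obtain ⟨Λ, hΛ⟩ : ∃ Λ : Matrix ι ι F ≃ₐ[F] ((ι → F) →ₗ[F] (ι → F)), Λ = Matrix.toLinAlgEquiv' := ⟨_, rfl⟩
  have h : Blk3.Sys (Λ (a : MI)) (Λ (b : MI)) (ω : F) := by
    refine ⟨?_, ?_, ?_, hω, h3⟩
    · have h1 : a * (a * a) = 1 := by rw [← sq, ← pow_succ', hrel.a3]
      have h2 : (a : MI) * (a * a) = 1 := congrArg (fun g : GL ι F => (g : MI)) h1
      rw [← map_mul, ← map_mul, h2, map_one]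
    · have h1 : b * (b * b) = 1 := by rw [← sq, ← pow_succ', hrel.b3]
      have h2 : (b : MI) * (b * b) = 1 := congrArg (fun g : GL ι F => (g : MI)) h1
      rw [← map_mul, ← map_mul, h2, map_one]
    · have h2 : (a : MI) * b = (ω : F) • ((b : MI) * a) := by
        have h3 := congrArg (fun g : GL ι F => (g : MI)) hrel.ab
        simp only [Units.val_mul, coe_sc, smul_mul_assoc, one_mul] at h3
        exact h3
      rw [← map_mul, h2, map_smul, map_mul]
  obtain ⟨ψ, hψ⟩ : ∃ ψ : Matrix ι ι F ≃ₐ[F] Matrix (Fin 3) (Fin 3) (Module.End F (Blk3.W (Λ (a : MI)))),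
    ψ = Λ.trans (Blk3.rhoE h) := ⟨_, rfl⟩
  have hψ' : ∀ Y : MI, ψ Y = Blk3.rho h (Λ Y) := fun Y => by rw [hψ]; rfl
  have hA : ψ (a : MI) = a3 (ω : F) := by rw [hψ']; exact Blk3.rho_A h
  have hB : ψ (b : MI) = b3 := by rw [hψ']; exact Blk3.rho_B h
  obtain ⟨k', hk'⟩ : ∃ k', k' = ψ (k : MI) := ⟨_, rfl⟩
  obtain ⟨g', hg'⟩ : ∃ g', g' = ψ (g : MI) := ⟨_, rfl⟩
  have ga' : g' * a3 (ω : F) = b3 * g' := by rw [hg', ← hA, ← hB, ← map_mul, ← map_mul, ga]
  have gb' : a3 (ω : F) * (g' * b3) = g' := by rw [hg', ← hA, ← hB, ← map_mul, ← map_mul, gb]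
  have kk2' : k' * k' = -1 := by rw [hk', ← map_mul, kk2, map_neg, map_one]
  have g4'' : (g' * g') * (g' * g') = -1 := by rw [hg', ← map_mul, ← map_mul, g4', map_neg, map_one]
  have ka' : k' * a3 (ω : F) = a3 (ω : F) * k' := by rw [hk', ← hA, ← map_mul, ← map_mul, ka]
  have sk' : (g' * g') * k' = -(k' * (g' * g')) := by
    rw [hg', hk', ← map_mul, ← map_mul, ← map_mul, sk, map_neg]
  have v4' : k' * b3 * k' * b3 = b3 * (b3 * k') := by
    rw [hk', ← hB, ← map_mul, ← map_mul, ← map_mul, ← map_mul, ← map_mul, v4]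
  have r6' : (k' * (g' * k' * (g' * (g' * g')))) ^ 3 = L • (g' * g') := by
    rw [hk', hg', ← map_mul, ← map_mul, ← map_mul, ← map_mul, ← map_mul, ← map_pow, r6, map_smul]
  obtain ⟨x, d₀, d₁, d₂, t, hk, hg, ht, hgg, htt, ht0, ht2, ht1, h00, h11, h22, h21, h02, h10⟩ :=
    stage_one_neg hω h3 ka' ga' gb' kk2' g4'' sk' v4'
  have hcard : Fintype.card ι = 3 * Module.finrank F (Blk3.W (Λ (a : MI))) := by
    rw [← Blk3.finrank_eq h, Module.finrank_fintype_fun_eq_card]
  refine ⟨ω, a, b, k, g, L, Blk3.W (Λ (a : MI)), ψ, x, d₀, d₁, d₂, t, La, Lb, Lk, Lg, hA, hB, by rw [← hk', hk],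
    by rw [← hg', hg], ?_, hcard, hL1⟩
  obtain ⟨a00, a01, a02, a10, a11, a12, a20, a21, a22⟩ := gm_entries hω x
  obtain ⟨k00, k01, k02, k10, k11, k12, k20, k21, k22⟩ := dg_entries d₀ d₁ d₂
  refine ⟨hω, h2, h3, hL2, ht, htt, ht0, ht2, ht1, h00, h11, h22, h21, h02, h10, ?_, ?_, ?_⟩
  · rw [hk, hg] at r6'
    exact r6'
  · -- irreducibility
    intro U hx h0 h1 h2
    have hU : ∀ y ∈ P, ∀ v ∈ Blk3.up h U, Λ (y : MI) v ∈ Blk3.up h U := by
      let Y : Subgroup (GL ι F) :=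
        { carrier := {y | (∀ v ∈ Blk3.up h U, Λ (y : MI) v ∈ Blk3.up h U)}
          mul_mem' := fun {y z} hy hz => by
            intro v hv
            rw [Units.val_mul, map_mul]
            exact hy _ (hz _ hv)
          one_mem' := by
            intro v hv
            rw [Units.val_one, map_one]; exact hv
          inv_mem' := fun {y} hy => by
            intro v hv
            have h5 : (Blk3.up h U).map (Λ (y : MI)) ≤ Blk3.up h U := by
              rintro _ ⟨u, hu, rfl⟩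
              exact hy u hu
            have hinj : Function.Injective (Λ (y : MI)) := by
              have h6 : Λ ((y⁻¹ : GL ι F) : MI) * Λ (y : MI) = 1 := by
                rw [← map_mul, ← Units.val_mul, inv_mul_cancel, Units.val_one, map_one]
              intro u w huw
              have h7 := congrArg (Λ ((y⁻¹ : GL ι F) : MI)) huw
              have h8 : ∀ u, Λ ((y⁻¹ : GL ι F) : MI) (Λ (y : MI) u) = u := fun u =>
                congrArg (fun T : Module.End F (ι → F) => T u) h6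
              rwa [h8, h8] at h7
            have h6 : (Blk3.up h U).map (Λ (y : MI)) = Blk3.up h U := by
              apply Submodule.eq_of_le_of_finrank_eq h5
              exact (Submodule.equivMapOfInjective _ hinj _).finrank_eq.symm
            rw [← h6] at hv
            obtain ⟨u, hu, rfl⟩ := hv
            have h7 : Λ ((y⁻¹ : GL ι F) : MI) * Λ (y : MI) = 1 := by
              rw [← map_mul, ← Units.val_mul, inv_mul_cancel, Units.val_one, map_one]
            have h8 : Λ ((y⁻¹ : GL ι F) : MI) (Λ (y : MI) u) = u :=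
                congrArg (fun T : Module.End F (ι → F) => T u) h7
            rw [h8]
            exact hu }
      have hY : ∀ y : GL ι F, y ∈ Y ↔ (∀ v ∈ Blk3.up h U, Λ (y : MI) v ∈ Blk3.up h U) := fun _ => Iff.rfl
      have hPY : P ≤ Y := by
        refine le_of_gens' C gen7 ?_ ?_
        · intro s hs
          simp only [Set.mem_insert_iff, Set.mem_singleton_iff] at hs
          rcases hs with rfl | rfl | rfl | rfl
          · refine ⟨a, fun v hv => Blk3.up_invt h ?_ hv, La⟩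
            rw [← hψ', hA]
            intro i j u hu
            rw [a3_apply]
            split_ifs
            · exact U.smul_mem _ hu
            · exact zero_mem U
          · refine ⟨b, fun v hv => Blk3.up_invt h ?_ hv, Lb⟩
            rw [← hψ', hB]
            intro i j u hu
            rw [b3_apply]
            split_ifs
            · exact hu
            · exact zero_mem U
          · refine ⟨k, fun v hv => Blk3.up_invt h ?_ hv, Lk⟩
            rw [← hψ', ← hk', hk]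
            intro i j u hu
            rcases fin3 i with rfl | rfl | rfl <;> rcases fin3 j with rfl | rfl | rfl <;>
              simp only [k00, k01, k02, k10, k11, k12, k20, k21, k22]
            all_goals first
              | exact zero_mem U
              | exact h0 u hu
              | exact h1 u hu
              | exact h2 u hu
          · refine ⟨g, fun v hv => Blk3.up_invt h ?_ hv, Lg⟩
            rw [← hψ', ← hg', hg]
            intro i j u hu
            exact U.smul_mem _ (hx u hu)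
        · intro c _
          refine (hY _).2 fun v hv => ?_
          rw [coe_sc, map_smul, map_one]
          exact (Blk3.up h U).smul_mem _ hv
      intro y hy
      exact hPY hy
    have h4 := hC.absIrred.1 (Blk3.up h U) (by
      rintro _ ⟨y, hy, rfl⟩
      rintro _ ⟨v, hv, rfl⟩
      have key : Matrix.toLinAlgEquiv' (y : MI) v = Λ (y : MI) v := by rw [hΛ]
      show Matrix.toLinAlgEquiv' (y : MI) v ∈ Blk3.up h U
      rw [key]
      exact hU y hy v hv)
    rcases h4 with h4 | h4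
    · exact Or.inl (Blk3.up_eq_bot h h4)
    · exact Or.inr (Blk3.up_eq_top h h4)
  · -- commutant
    intro Z hx h0 h1 h2
    obtain ⟨X, hX⟩ : ∃ X : MI, ψ X = dg Z Z Z := ψ.surjective _
    obtain ⟨X00, X01, X02, X10, X11, X12, X20, X21, X22⟩ := dg_entries Z Z Z
    have key : ∀ y : GL ι F, dg Z Z Z * ψ (y : MI) = ψ (y : MI) * dg Z Z Z → X * (y : MI) = (y : MI) * X := by
      intro y hy
      apply ψ.injective
      rw [map_mul, map_mul, hX]
      exact hy
    let Y : Subgroup (GL ι F) :=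
      { carrier := {x | X * (x : MI) = (x : MI) * X}
        mul_mem' := fun {x y} hx hy => by
          change X * ((x * y : GL ι F) : MI) = ((x * y : GL ι F) : MI) * X
          rw [Units.val_mul, ← mul_assoc, show X * (x : MI) = (x : MI) * X from hx, mul_assoc,
            show X * (y : MI) = (y : MI) * X from hy, mul_assoc]
        one_mem' := by
          change X * ((1 : GL ι F) : MI) = ((1 : GL ι F) : MI) * X
          rw [Units.val_one, mul_one, one_mul]
        inv_mem' := fun {x} hx => by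
          change X * ((x⁻¹ : GL ι F) : MI) = ((x⁻¹ : GL ι F) : MI) * X
          have h1 : ((x⁻¹ : GL ι F) : MI) * (X * (x : MI)) * ((x⁻¹ : GL ι F) : MI) =
            ((x⁻¹ : GL ι F) : MI) * ((x : MI) * X) * ((x⁻¹ : GL ι F) : MI) := by
              rw [show X * (x : MI) = (x : MI) * X from hx]
          have h2 : (x : MI) * ((x⁻¹ : GL ι F) : MI) = 1 := by rw [← Units.val_mul, mul_inv_cancel, Units.val_one]
          have h4 : ((x⁻¹ : GL ι F) : MI) * (x : MI) = 1 := by rw [← Units.val_mul, inv_mul_cancel, Units.val_one]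
          rw [mul_assoc, mul_assoc, h2, mul_one, ← mul_assoc (((x⁻¹ : GL ι F) : MI)) (x : MI), h4, one_mul] at h1
          exact h1.symm }
    have hPY : P ≤ Y := by
      refine le_of_gens' C gen7 ?_ ?_
      · intro s hs
        simp only [Set.mem_insert_iff, Set.mem_singleton_iff] at hs
        rcases hs with rfl | rfl | rfl | rfl
        · exact ⟨a, key a (by rw [hA]; exact dg_a3' _ Z), La⟩
        · exact ⟨b, key b (by rw [hB]; exact dg_b3' Z), Lb⟩
        · exact ⟨k, key k (by rw [← hk', hk]; exact dg_dg' h0 h1 h2), Lk⟩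
        · exact ⟨g, key g (by rw [← hg', hg]; exact dg_gm' hω hx), Lg⟩
      · intro c _
        change X * ((sc c : GL ι F) : MI) = ((sc c : GL ι F) : MI) * X
        rw [coe_sc, mul_smul_comm, smul_mul_assoc, mul_one, one_mul]
    obtain ⟨c, hc⟩ := hC.absIrred.2 X (by
      rintro _ ⟨x, hx, rfl⟩
      exact hPY hx)
    refine ⟨c, ?_⟩
    rw [hc, map_smul, map_one] at hX
    have h6 := congrFun (congrFun hX 0) 0
    rw [X00, Matrix.smul_apply, Matrix.one_apply_eq] at h6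
    exact h6.symm

/-- **The normal form in dimension twelve.** -/
theorem exists_frame [Nonempty ι] [Finite F] (hC : Core P) (C : Cov P (alternatingGroup (Fin 7))) (hZ : Z6 P)
    (hn : Fintype.card ι = 12)
    (hz : ∃ c : Fˣ, c ≠ 1 ∧ c ^ 3 = 1 ∧ sc c ∈ P) (h2 : (2 : F) ≠ 0) (hneg : (sc (-1 : Fˣ) : GL ι F) ∈ P) :
    ∃ (ω : Fˣ) (L : F) (a b k g : GL ι F)
      (ψ : Matrix ι ι F ≃ₐ[F] Matrix (Fin 3) (Fin 3) (Matrix (Fin 2) (Fin 2) (Matrix (Fin 2) (Fin 2) F)))
      (x d₀ d₁ d₂ t : Matrix (Fin 2) (Fin 2) (Matrix (Fin 2) (Fin 2) F))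
      (X Z N p₀ p₁ p₂ q₀ q₁ q₂ : Matrix (Fin 2) (Fin 2) F),
      C.L a r3 ∧ C.L b r3' ∧ C.L k kk ∧ C.L g g4 ∧ ψ a = a3 (ω : F) ∧ ψ b = b3 ∧ ψ k = dg d₀ d₁ d₂ ∧ ψ g = gm (ω : F) x ∧
      Blk (ω : F) (ω - ω ^ 2) x t d₀ d₁ d₂ ∧ Shape (F := F) x t X Z N ∧ Eqs (ω : F) L X Z N p₀ p₁ p₂ q₀ q₁ q₂ ∧
      Irr X Z N ∧ L = 1 := by
  obtain ⟨ω, a, b, k, g, L, W, ψ, x, d₀, d₁, d₂, t, La, Lb, Lk, Lg, hA, hB, hK, hG, D, hW, hL1⟩ :=
    exists_dat hC C hZ hz h2 hneg
  rw [hn] at hW
  obtain ⟨θ, X, Z, N, p₀, p₁, p₂, q₀, q₁, q₂, hB', S, E, I⟩ := D.main (by omega)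
  refine ⟨ω, L, a, b, k, g, ψ.trans θ.mapMatrix, θ x, θ d₀, θ d₁, θ d₂, θ t, X, Z, N, p₀, p₁, p₂, q₀, q₁, q₂, La, Lb, Lk,
    Lg, ?_, ?_, ?_, ?_, hB', S, E, I, hL1⟩
  · rw [AlgEquiv.trans_apply, hA]; exact map_a3' (R := Module.End F W) (S := Matrix (Fin 2) (Fin 2) (Matrix (Fin 2) (Fin 2) F)) θ
  · rw [AlgEquiv.trans_apply, hB]; exact map_b3' (R := Module.End F W) (S := Matrix (Fin 2) (Fin 2) (Matrix (Fin 2) (Fin 2) F)) θ
  · rw [AlgEquiv.trans_apply, hK]; exact map_dg' (R := Module.End F W) (S := Matrix (Fin 2) (Fin 2) (Matrix (Fin 2) (Fin 2) F)) θ _ _ _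
  · rw [AlgEquiv.trans_apply, hG]; exact map_gm' (R := Module.End F W) (S := Matrix (Fin 2) (Fin 2) (Matrix (Fin 2) (Fin 2) F)) θ x

/-- **`6.A₇` in dimension twelve: `p = 5`.** -/
theorem twelve_six [Finite F] (hC : Core P) (e : Soc P ≃* alternatingGroup (Fin 7)) (hn : Fintype.card ι = 12)
    (hz : ∃ c : Fˣ, c ≠ 1 ∧ c ^ 3 = 1 ∧ sc c ∈ P) (h2 : (2 : F) ≠ 0) (hneg : (sc (-1 : Fˣ) : GL ι F) ∈ P) :
    (5 : F) = 0 := by
  have hι : Nonempty ι := hC.nonempty
  by_contra h5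
  obtain ⟨ω, L, a, b, k, g, ψ, x, d₀, d₁, d₂, t, X, Z, N, p₀, p₁, p₂, q₀, q₁, q₂, -, -, -, -, -, -, -, -, -, -, E, I, -⟩ :=
    exists_frame hC (Cov.of e) (z6_of' hC e) hn hz h2 hneg
  exact E.false_of I h5

end core

end Cfsg.Agent.H825.A7x
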