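import Cfsg.Agent.H825.A7x.Theta

/-!
# Block form for `a b = ω b a` on any space (after helper637; helper825)

`V` a space with endomorphisms `A³ = B³ = 1`, `A B = ω B A`.  With `W = ker (A - 1)` every endomorphism of `V` becomes a
`3 × 3` matrix over `End W`: `rho T i j = π B^(-i) T B^j`.
-/

set_option autoImplicit false
set_option linter.unusedSectionVars false

namespace Cfsg.Agent.H825.A7x.Blk3

open Cfsg.Agent.H890.A7 (a3 b3 dg gm rm fin3 ext3 omega_cube omega_ne)

variable {F V : Type*} [Field F] [AddCommGroup V] [Module F V]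

/-- the data -/
structure Sys (A B : Module.End F V) (ω : F) : Prop where
  hA : A * (A * A) = 1
  hB : B * (B * B) = 1
  hAB : A * B = ω • (B * A)
  hω : ω ^ 2 + ω + 1 = 0
  h3 : (3 : F) ≠ 0

/-- the fixed space of `A` -/
def W (A : Module.End F V) : Submodule F V := LinearMap.ker (A - 1)

theorem mem_W {A : Module.End F V} {v : V} : v ∈ W A ↔ A v = v := by
  rw [W, LinearMap.mem_ker, LinearMap.sub_apply, Module.End.one_apply, sub_eq_zero]

variable {A B : Module.End F V} {ω : F}

namespace Sys

variable (h : Sys A B ω)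
include h

theorem AAA (v : V) : A (A (A v)) = v := by
  have := congrArg (fun T : Module.End F V => T v) h.hA
  exact this

theorem BBB (v : V) : B (B (B v)) = v := by
  have := congrArg (fun T : Module.End F V => T v) h.hB
  exact this

theorem AB (v : V) : A (B v) = ω • B (A v) := by
  have := congrArg (fun T : Module.End F V => T v) h.hAB
  exact this

theorem ω3 : ω ^ 3 = 1 := omega_cube h.hω

theorem pr_mem (v : V) : (3 : F)⁻¹ • (v + A v + A (A v)) ∈ W A := by
  rw [mem_W, map_smul, map_add, map_add, h.AAA]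
  congr 1
  abel

end Sys

/-- the projection onto `W` -/
noncomputable def pr (h : Sys A B ω) : V →ₗ[F] W A where
  toFun v := ⟨(3 : F)⁻¹ • (v + A v + A (A v)), h.pr_mem v⟩
  map_add' u v := by
    apply Subtype.ext
    simp only [map_add, Submodule.coe_add]
    rw [← smul_add]
    congr 1
    abel
  map_smul' c v := by
    apply Subtype.ext
    simp only [map_smul, Submodule.coe_smul, RingHom.id_apply]
    rw [← smul_add, ← smul_add, smul_comm]

theorem pr_coe (h : Sys A B ω) (v : V) : ((pr h v : W A) : V) = (3 : F)⁻¹ • (v + A v + A (A v)) := rfl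

/-- `v ↦ B^j v` -/
noncomputable def em (B : Module.End F V) (A : Module.End F V) (j : Fin 3) : W A →ₗ[F] V :=
  (B ^ (j : ℕ)) ∘ₗ (W A).subtype

/-- `v ↦ π (B^(-i) v)` -/
noncomputable def pj (h : Sys A B ω) (i : Fin 3) : V →ₗ[F] W A :=
  (pr h) ∘ₗ (B ^ (2 * (i : ℕ)))

section
variable (h : Sys A B ω)

theorem em_zero (w : W A) : em B A 0 w = w := rfl
theorem em_one (w : W A) : em B A 1 w = B w := by
  show (B ^ 1) (w : V) = _
  rw [pow_one]
theorem em_two (w : W A) : em B A 2 w = B (B w) := by
  show (B ^ 2) (w : V) = _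
  rw [sq]; rfl

theorem pj_zero (v : V) : pj h 0 v = pr h v := rfl
theorem pj_one (v : V) : pj h 1 v = pr h (B (B v)) := by
  show pr h ((B ^ 2) v) = _
  rw [sq]; rfl
theorem pj_two (v : V) : pj h 2 v = pr h (B v) := by
  show pr h ((B ^ 4) v) = _
  have : (B ^ 4) v = B (B (B (B v))) := rfl
  rw [this, h.BBB]

include h in
theorem A_em (j : Fin 3) (w : W A) : A (em B A j w) = ω ^ (j : ℕ) • em B A j w := by
  have hw : A (w : V) = w := mem_W.1 w.2
  rcases fin3 j with rfl | rfl | rfl
  · rw [em_zero, hw]; simp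
  · rw [em_one, h.AB, hw]; simp
  · rw [em_two, h.AB, h.AB, hw, map_smul, smul_smul]
    show _ = ω ^ 2 • _
    rw [sq]

include h in
theorem B_em (j : Fin 3) (w : W A) : B (em B A j w) = em B A (j + 1) w := by
  rcases fin3 j with rfl | rfl | rfl
  · rw [em_zero]; show _ = em B A 1 w; rw [em_one]
  · rw [em_one]; show _ = em B A 2 w; rw [em_two]
  · rw [em_two, h.BBB]; show _ = em B A 0 w; rw [em_zero]

theorem pr_em (j : Fin 3) (w : W A) : pr h (em B A j w) = if j = 0 then w else 0 := by
  apply Subtype.ext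
  rw [pr_coe, A_em h, map_smul, A_em h, smul_smul]
  have hω := h.hω
  have h3 := h.h3
  rcases fin3 j with rfl | rfl | rfl
  · rw [if_pos rfl, em_zero]
    show (3 : F)⁻¹ • ((w : V) + ω ^ 0 • (w : V) + (ω ^ 0 * ω ^ 0) • (w : V)) = w
    rw [pow_zero, one_smul, mul_one, one_smul]
    have : (w : V) + w + w = (3 : F) • (w : V) := by
      rw [show (3 : F) = 1 + 1 + 1 by norm_num, add_smul, add_smul, one_smul]
    rw [this, smul_smul, inv_mul_cancel₀ h3, one_smul]
  · rw [if_neg (by decide)]
    show (3 : F)⁻¹ • (em B A 1 w + ω ^ 1 • em B A 1 w + (ω ^ 1 * ω ^ 1) • em B A 1 w) = 0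
    have : em B A 1 w + ω ^ 1 • em B A 1 w + (ω ^ 1 * ω ^ 1) • em B A 1 w = (ω ^ 2 + ω + 1) • em B A 1 w := by module
    rw [this, hω, zero_smul, smul_zero]
  · rw [if_neg (by decide)]
    show (3 : F)⁻¹ • (em B A 2 w + ω ^ 2 • em B A 2 w + (ω ^ 2 * ω ^ 2) • em B A 2 w) = 0
    have : em B A 2 w + ω ^ 2 • em B A 2 w + (ω ^ 2 * ω ^ 2) • em B A 2 w =
        ((ω ^ 2 - ω + 1) * (ω ^ 2 + ω + 1)) • em B A 2 w := by module
    rw [this, hω, mul_zero, zero_smul, smul_zero]

theorem pj_em (i j : Fin 3) (w : W A) : pj h i (em B A j w) = if i = j then w else 0 := by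
  rcases fin3 i with rfl | rfl | rfl
  · rw [pj_zero, pr_em]
    exact if_congr eq_comm rfl rfl
  · rw [pj_one, B_em h, B_em h, pr_em]
    refine if_congr ?_ rfl rfl
    rcases fin3 j with rfl | rfl | rfl <;> decide
  · rw [pj_two, B_em h, pr_em]
    refine if_congr ?_ rfl rfl
    rcases fin3 j with rfl | rfl | rfl <;> decide

theorem sum_em_pj (v : V) : ∑ i, em B A i (pj h i v) = v := by
  rw [Fin.sum_univ_three, em_zero, em_one, em_two, pj_zero, pj_one, pj_two, pr_coe, pr_coe, pr_coe]
  have hω := h.hω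
  have h3 := h.h3
  have e1 : ∀ u, B (A (B (B u))) = ω ^ 2 • A u := by
    intro u
    -- A B² = ω² B² A
    have : A (B (B u)) = ω ^ 2 • B (B (A u)) := by rw [h.AB, h.AB, map_smul, smul_smul, sq]
    rw [this, map_smul, h.BBB]
  have e2 : ∀ u, B (B (A (B u))) = ω • A u := by
    intro u
    rw [h.AB, map_smul, map_smul, h.BBB]
  have e3 : B (A (A (B (B v)))) = ω • A (A v) := by
    have : A (A (B (B v))) = ω ^ 4 • B (B (A (A v))) := by
      have e : ∀ u, A (B (B u)) = ω ^ 2 • B (B (A u)) := by
        intro u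
        rw [h.AB, h.AB, map_smul, smul_smul, sq]
      rw [e, map_smul, e, smul_smul]
      congr 1
      ring
    rw [this, map_smul, h.BBB]
    congr 1
    linear_combination ω * h.ω3
  have e4 : B (B (A (A (B v)))) = ω ^ 2 • A (A v) := by
    rw [h.AB, map_smul, h.AB, smul_smul, map_smul, map_smul, h.BBB, sq]
  rw [map_smul, map_smul, map_smul, map_add, map_add, map_add, map_add, map_add, map_add, h.BBB, e1, e3, e2, e4,
    ← smul_add, ← smul_add]
  have : v + A v + A (A v) + (v + ω ^ 2 • A v + ω • A (A v)) + (v + ω • A v + ω ^ 2 • A (A v)) =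
      (3 : F) • v + (ω ^ 2 + ω + 1) • (A v + A (A v)) := by module
  rw [this, hω, zero_smul, add_zero, smul_smul, inv_mul_cancel₀ h3, one_smul]

/-- the block matrix of an endomorphism -/
noncomputable def rho (h : Sys A B ω) (T : Module.End F V) : Matrix (Fin 3) (Fin 3) (Module.End F (W A)) :=
  Matrix.of fun i j => (pj h i) ∘ₗ T ∘ₗ (em B A j)

theorem rho_apply (T : Module.End F V) (i j : Fin 3) (w : W A) : rho h T i j w = pj h i (T (em B A j w)) := rfl

theorem em_rho (T : Module.End F V) (j : Fin 3) (w : W A) : T (em B A j w) = ∑ i, em B A i (rho h T i j w) := by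
  simp only [rho_apply]
  rw [sum_em_pj]

theorem rho_mul (S T : Module.End F V) : rho h (S * T) = rho h S * rho h T := by
  ext i j w : 3
  rw [Matrix.mul_apply, rho_apply, Module.End.mul_apply, em_rho h T, LinearMap.sum_apply, map_sum, map_sum]
  rfl

theorem rho_one : rho h 1 = 1 := by
  ext i j w : 3
  rw [rho_apply, Module.End.one_apply, pj_em, Matrix.one_apply]
  split_ifs <;> rfl

theorem rho_smul (c : F) (T : Module.End F V) : rho h (c • T) = c • rho h T := by
  ext i j w : 3
  rw [rho_apply, LinearMap.smul_apply, map_smul]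
  rfl

theorem rho_injective : Function.Injective (rho h) := by
  intro S T e
  apply LinearMap.ext
  intro v
  rw [← sum_em_pj h v, map_sum, map_sum]
  apply Finset.sum_congr rfl
  intro i _
  rw [em_rho h S, em_rho h T, e]

theorem rho_A : rho h A = a3 ω := by
  ext i j w : 3
  rw [rho_apply, A_em h, map_smul, pj_em, H890.A7.a3_apply]
  by_cases hij : i = j
  · rw [if_pos hij, if_pos hij]; rfl
  · rw [if_neg hij, if_neg hij, smul_zero]; rfl

theorem rho_B : rho h B = b3 := by
  ext i j w : 3
  rw [rho_apply, B_em h, pj_em, H890.A7.b3_apply]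
  by_cases hij : i = j + 1
  · rw [if_pos hij, if_pos hij]; rfl
  · rw [if_neg hij, if_neg hij]; rfl

theorem rho_pow (T : Module.End F V) (n : ℕ) : rho h (T ^ n) = rho h T ^ n := by
  induction n with
  | zero => rw [pow_zero, pow_zero, rho_one]
  | succ n ih => rw [pow_succ, pow_succ, rho_mul, ih]

/-- the induced subspace of `V` -/
noncomputable def up (U : Submodule F (W A)) : Submodule F V where
  carrier := {v | ∀ i, pj h i v ∈ U}
  add_mem' {u v} hu hv i := by rw [map_add]; exact add_mem (hu i) (hv i)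
  zero_mem' i := by rw [map_zero]; exact zero_mem U
  smul_mem' c v hv i := by rw [map_smul]; exact U.smul_mem c (hv i)

theorem mem_up {U : Submodule F (W A)} {v : V} : v ∈ up h U ↔ ∀ i, pj h i v ∈ U := Iff.rfl

theorem up_invt {U : Submodule F (W A)} {T : Module.End F V} (hT : ∀ i j, ∀ u ∈ U, rho h T i j u ∈ U) {v : V}
    (hv : v ∈ up h U) : T v ∈ up h U := by
  intro i
  rw [← sum_em_pj h v, map_sum, map_sum]
  exact sum_mem fun j _ => hT i j _ (hv j)

theorem up_eq_bot {U : Submodule F (W A)} (hU : up h U = ⊥) : U = ⊥ := by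
  rw [eq_bot_iff]
  intro u hu
  have h1 : em B A 0 u ∈ up h U := by
    intro i
    rw [pj_em]
    split_ifs
    · exact hu
    · exact zero_mem U
  rw [hU, Submodule.mem_bot, em_zero] at h1
  rw [Submodule.mem_bot]
  exact Subtype.ext h1

theorem up_eq_top {U : Submodule F (W A)} (hU : up h U = ⊤) : U = ⊤ := by
  rw [eq_top_iff]
  intro u _
  have h1 : em B A 0 u ∈ up h U := by rw [hU]; exact Submodule.mem_top
  have h2 := h1 0
  rwa [pj_em, if_pos rfl] at h2

/-- the coordinates -/
noncomputable def coords (h : Sys A B ω) : V ≃ₗ[F] (Fin 3 → W A) where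
  toFun v i := pj h i v
  invFun w := ∑ i, em B A i (w i)
  map_add' u v := by funext i; exact map_add _ _ _
  map_smul' c v := by funext i; exact map_smul _ _ _
  left_inv v := sum_em_pj h v
  right_inv w := by
    funext i
    simp only [map_sum, pj_em]
    rw [Finset.sum_ite_eq Finset.univ i, if_pos (Finset.mem_univ i)]

/-- the algebra isomorphism -/
noncomputable def rhoE : Module.End F V ≃ₐ[F] Matrix (Fin 3) (Fin 3) (Module.End F (W A)) :=
  blkE (em B A) (pj h) (fun i j w => pj_em h i j w) (sum_em_pj h)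

theorem rhoE_apply (T : Module.End F V) : rhoE h T = rho h T := rfl

include h in
theorem finrank_eq [FiniteDimensional F V] : Module.finrank F V = 3 * Module.finrank F (W A) := by
  rw [(coords h).finrank_eq, Module.finrank_pi_fintype, Finset.sum_const, Finset.card_univ, Fintype.card_fin,
    smul_eq_mul]

theorem trace_eq [FiniteDimensional F V] (T : Module.End F V) :
    LinearMap.trace F V T = ∑ i, LinearMap.trace F (W A) (rho h T i i) := by
  have h1 : T = ∑ i, (T ∘ₗ em B A i) ∘ₗ pj h i := by
    apply LinearMap.ext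
    intro v
    rw [LinearMap.sum_apply]
    conv_lhs => rw [← sum_em_pj h v, map_sum]
    rfl
  conv_lhs => rw [h1, map_sum]
  apply Finset.sum_congr rfl
  intro i _
  rw [LinearMap.trace_comp_comm']
  rfl

end

end Cfsg.Agent.H825.A7x.Blk3
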