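import Cfsg.Agent.H825.A7x.Red

/-!
# `6.A₇` in dimension twelve: the equations for `X, Z, N` (helper825)
-/

set_option autoImplicit false
set_option linter.unusedSectionVars false
set_option linter.unusedSimpArgs false

namespace Cfsg.Agent.H825.A7x

open Matrix Cfsg.Agent.H890.A7

section gen

variable {F : Type*} [Field F] {R : Type*} [Ring R] [Algebra F R] {ω : F}

/-- the shape of `E_m` -/
def EE (p q q' p' N : R) : Matrix (Fin 2) (Fin 2) R := 
  (!![p, (2 : F) • (q * N); (4 : F) • (N * q'), -((2 : F) • (N * p' * N))] : Matrix (Fin 2) (Fin 2) R)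

section blk

variable {x t d₀ d₁ d₂ : Matrix (Fin 2) (Fin 2) R} {s : F}

/-- the shape of `x` -/
structure Shape (x t : Matrix (Fin 2) (Fin 2) R) (X Z N : R) : Prop where
  t_eq : t = !![0, N; -((2 : F) • N), 0]
  x_eq : x = !![X, Z * N; -((2 : F) • (N * Z)), (2 : F) • (N * X * N)]
  NN : (2 : F) • (N * N) = 1
  XX : X * X = Z * Z
  XZ : (3 : F) • (X * Z + Z * X) = 1

theorem half {N : R} (h2 : (2 : F) ≠ 0) (hN : (2 : F) • (N * N) = 1) : N * N = (2 : F)⁻¹ • 1 := by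
  rw [← hN, smul_smul, inv_mul_cancel₀ h2, one_smul]

theorem half' {N : R} (h2 : (2 : F) ≠ 0) (hN : (2 : F) • (N * N) = 1) (Y : R) : N * (N * Y) = (2 : F)⁻¹ • Y := by
  rw [← mul_assoc, half h2 hN, smul_mul_assoc, one_mul]

theorem Blk.shape (h : Blk ω s x t d₀ d₁ d₂) : ∃ X Z N : R, Shape (F := F) x t X Z N := by
  obtain ⟨N, ht, hN⟩ := h.t_eq
  have n2 := half h.h2 hN
  have n3 := half' h.h2 hN
  obtain ⟨x00, x01, x10, x11, hx⟩ : ∃ a b c d, x = !![a, b; c, d] := ⟨_, _, _, _, eta2 x⟩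
  have hxt : x * t = t * x := by rw [h.ht, mul_smul_comm, smul_mul_assoc, mul_assoc]
  rw [hx, ht, mk_mul, mk_mul] at hxt
  obtain ⟨k0, k1, k2, k3⟩ := mk_inj hxt
  simp only [mul_zero, zero_mul, add_zero, zero_add, mul_neg, neg_mul, mul_smul_comm, smul_mul_assoc] at k0 k1 k2 k3
  have h2 := h.h2
  have e11 : x11 = (2 : F) • (N * x00 * N) := by
    rw [mul_assoc, k1, n3, smul_smul, mul_inv_cancel₀ h2, one_smul]
  have e01 : x01 = ((2 : F) • (x01 * N)) * N := by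
    rw [smul_mul_assoc, mul_assoc, n2, mul_smul_comm, smul_smul, mul_inv_cancel₀ h2, one_smul, mul_one]
  have e10 : x10 = -((2 : F) • (N * ((2 : F) • (x01 * N)))) := by
    have e : -((2 : F) • (N * ((2 : F) • (x01 * N)))) = (2 : F) • (N * -((2 : F) • (x01 * N))) := by
      rw [mul_neg, smul_neg]
    rw [e, k0, n3, smul_smul, mul_inv_cancel₀ h2, one_smul]
  obtain ⟨Z, hZ⟩ : ∃ Z, Z = (2 : F) • (x01 * N) := ⟨_, rfl⟩
  rw [← hZ] at e01 e10
  have hx' : x = !![x00, Z * N; -((2 : F) • (N * Z)), (2 : F) • (N * x00 * N)] := by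
    rw [hx, ← e01, ← e10, ← e11]
  have h3 : (3 : F) • (x * x) = t := h.ht.symm
  rw [hx', ht, mk_mul, mk_smul] at h3
  obtain ⟨j0, j1, -, -⟩ := mk_inj h3
  refine ⟨x00, Z, N, ht, hx', hN, ?_, ?_⟩
  · have e : (3 : F) • (x00 * x00 - Z * Z) = 0 := by
      rw [← j0]
      simp only [mul_neg, mul_smul_comm, mul_assoc, n3]
      simp only [smul_smul, mul_inv_cancel₀ h2, one_smul]
      rw [sub_eq_add_neg]
    exact sub_eq_zero.1 ((smul_eq_zero.1 e).resolve_left h.h3)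
  · have e : (3 : F) • (x00 * Z + Z * x00) * N = N := by
      conv_rhs => rw [← j1]
      simp only [mul_neg, mul_smul_comm, mul_assoc, n3, smul_mul_assoc, add_mul]
      simp only [smul_smul, mul_inv_cancel₀ h2, one_smul]
    calc (3 : F) • (x00 * Z + Z * x00) = (2 : F) • (((3 : F) • (x00 * Z + Z * x00) * N) * N) := by
          rw [mul_assoc, ← mul_smul_comm, hN, mul_one]
      _ = 1 := by rw [e, hN]

theorem Shape.E_eq {X Z N : R} (h2 : (2 : F) ≠ 0) (S : Shape (F := F) x t X Z N) (u v : F) :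
    -(x * t * SD u v * x) = EE (F := F) ((Z * X - X * Z) - (2 * v) • (X * N * X) - (2 * u) • (Z * N * Z))
      (X * X + u • (Z * N * X) - v • (X * N * Z)) (X * X + v • (Z * N * X) - u • (X * N * Z))
      ((Z * X - X * Z) - (2 * u) • (X * N * X) - (2 * v) • (Z * N * Z)) N := by
  have n2 := half h2 S.NN
  have n3 := half' h2 S.NN
  have n4 : Z * Z = X * X := S.XX.symm
  have n5 : ∀ Y : R, Z * (Z * Y) = X * (X * Y) := fun Y => by rw [← mul_assoc, n4, mul_assoc]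
  rw [S.t_eq, S.x_eq, SD, EE, mk_mul, mk_mul, mk_mul, mk_neg]
  congr 1
  simp only [mul_assoc, mul_neg, neg_mul, mul_smul_comm, smul_mul_assoc, mul_zero, zero_mul, add_zero, zero_add,
    mul_add, add_mul, mul_sub, sub_mul, mul_one, one_mul, n3, n2, n4, n5, smul_smul]
  have e : ∀ (a b c d a' b' c' d' : R), a = a' → b = b' → c = c' → d = d' →
      (![![a, b], ![c, d]] : Fin 2 → Fin 2 → R) = ![![a', b'], ![c', d']] := by
    rintro a b c d a' b' c' d' rfl rfl rfl rfl; rfl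
  apply e <;> match_scalars <;> field_simp <;> ring

/-- the nine equations -/
theorem nine_eqs {L : F} {N p₀ p₁ p₂ q₀ q₁ q₂ : R} (h2 : (2 : F) ≠ 0) (h3 : (3 : F) ≠ 0) (hN : (2 : F) • (N * N) = 1)
    {t f₀ f₁ f₂ E₀ E₁ E₂ : Matrix (Fin 2) (Fin 2) R} (ht : t = !![0, N; -((2 : F) • N), 0])
    (hf0 : f₀ = !![1, 0; 0, -1]) (hf1 : f₁ = !![0, 0; (2 : F) • 1, 0]) (hf2 : f₂ = !![0, 1; 0, 0])
    (hE0 : E₀ = EE (F := F) p₀ q₀ q₀ p₀ N) (hE1 : E₁ = EE (F := F) p₁ q₁ q₂ p₂ N) (hE2 : E₂ = EE (F := F) p₂ q₂ q₁ p₁ N)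
    (hE : (3 : F) • (dg E₀ E₁ E₂ * ci f₀ f₂ f₁ * dg E₀ E₁ E₂) =
      L • (rm t * (ci f₀ f₂ f₁ * dg E₀ E₁ E₂ * ci f₀ f₂ f₁))) :
    (3 : F) • (p₀ * p₀) - (12 : F) • (q₀ * q₀) = -((2 * L) • q₀) ∧
    (6 : F) • (q₁ * N * p₂) = -(L • q₁) ∧
    (6 : F) • (p₂ * N * q₂) = -(L • q₂) ∧
    (6 : F) • (q₀ * N * p₁) = L • (p₀ * N + N * p₁) ∧
    (6 : F) • (p₁ * N * q₀) = L • (p₁ * N + N * p₀) ∧
    (3 : F) • (p₂ * p₂) - (12 : F) • (q₂ * q₁) = (2 * L) • (p₂ * N + N * p₂) ∧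
    (3 : F) • (p₀ * N * q₁) = (2 * L) • (N * q₁ * N) ∧
    (3 : F) • (q₂ * N * p₀) = (2 * L) • (N * q₂ * N) ∧
    (3 : F) • (p₁ * p₁) - (12 : F) • (q₁ * q₂) = (8 * L) • (N * q₀ * N) := by
  have n2 := half h2 hN
  have n3 := half' h2 hN
  have h6 : (6 : F) ≠ 0 := by
    rw [show (6 : F) = 2 * 3 by norm_num]; exact mul_ne_zero h2 h3
  obtain ⟨k00, k01, k02, k10, k11, k12, k20, k21, k22⟩ := dg_entries E₀ E₁ E₂
  obtain ⟨c00, c01, c02, c10, c11, c12, c20, c21, c22⟩ := ci_entries f₀ f₂ f₁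
  obtain ⟨r00, r01, r02, r10, r11, r12, r20, r21, r22⟩ := rm_entries t
  have key : ∀ i j, (3 : F) • (dg E₀ E₁ E₂ * ci f₀ f₂ f₁ * dg E₀ E₁ E₂ : Matrix (Fin 3) (Fin 3) _) i j =
      L • (rm t * (ci f₀ f₂ f₁ * dg E₀ E₁ E₂ * ci f₀ f₂ f₁) : Matrix (Fin 3) (Fin 3) _) i j := fun i j =>
    congrFun (congrFun hE i) j
  have b00 := key 0 0
  have b01 := key 0 1
  have b02 := key 0 2
  have b10 := key 1 0
  have b11 := key 1 1
  have b12 := key 1 2
  have b20 := key 2 0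
  have b21 := key 2 1
  have b22 := key 2 2
  simp only [mul3, k00, k01, k02, k10, k11, k12, k20, k21, k22, c00, c01, c02, c10, c11, c12, c20, c21, c22,
    r00, r01, r02, r10, r11, r12, r20, r21, r22, zero_mul, mul_zero, add_zero, zero_add]
    at b00 b01 b02 b10 b11 b12 b20 b21 b22
  simp only [hf0, hf1, hf2, hE0, hE1, hE2, EE, ht, mk_mul, mk_add, mk_smul] at b00 b01 b02 b10 b11 b12 b20 b21 b22
  have a00 := (mk_inj b00).1
  have a01 := (mk_inj b01).1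
  have a02 := (mk_inj b02).1
  have a10 := (mk_inj b10).1
  have a11 := (mk_inj b11).1
  have a12 := (mk_inj b12).1
  have a20 := (mk_inj b20).1
  have a21 := (mk_inj b21).1
  have a22 := (mk_inj b22).1
  clear b00 b01 b02 b10 b11 b12 b20 b21 b22 k00 k01 k02 k10 k11 k12 k20 k21 k22 c00 c01 c02 c10 c11 c12 c20 c21 c22
    r00 r01 r02 r10 r11 r12 r20 r21 r22 key hE
  simp only [mul_assoc, mul_neg, neg_mul, mul_smul_comm, smul_mul_assoc, mul_zero, zero_mul, add_zero, zero_add,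
    mul_add, add_mul, mul_one, one_mul, n3, n2, smul_smul, smul_neg, neg_neg, neg_zero, smul_zero]
    at a00 a01 a02 a10 a11 a12 a20 a21 a22 ⊢
  have e2 : (2 : F) * 2⁻¹ = 1 := mul_inv_cancel₀ h2
  have e4 : (4 : F) * 2⁻¹ = 2 := by rw [show (4 : F) = 2 * 2 by norm_num, mul_assoc, e2, mul_one]
  simp only [e2, e4, mul_one] at a00 a01 a02 a10 a11 a12 a20 a21 a22
  refine ⟨?_, ?_, ?_, ?_, ?_, ?_, ?_, ?_, ?_⟩
  · linear_combination (norm := module) a00
  · apply smul_right_injective _ h2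
    show (2 : F) • _ = (2 : F) • _
    linear_combination (norm := module) a12
  · apply smul_right_injective _ h2
    show (2 : F) • _ = (2 : F) • _
    linear_combination (norm := module) a21
  · apply smul_right_injective _ h2
    show (2 : F) • _ = (2 : F) • _
    linear_combination (norm := module) a01
  · apply smul_right_injective _ h2
    show (2 : F) • _ = (2 : F) • _
    linear_combination (norm := module) a10
  · linear_combination (norm := module) a22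
  · apply smul_right_injective _ (mul_ne_zero h2 h2)
    show (2 * 2 : F) • _ = (2 * 2 : F) • _
    linear_combination (norm := module) a02
  · apply smul_right_injective _ (mul_ne_zero h2 h2)
    show (2 * 2 : F) • _ = (2 * 2 : F) • _
    linear_combination (norm := module) a20
  · linear_combination (norm := module) a11

theorem EE_sq {h2 : (2 : F) ≠ 0} {N p q q' p' : R} (hN : (2 : F) • (N * N) = 1)
    (h : (3 : F) • (EE (F := F) p q q' p' N * EE (F := F) p q q' p' N) = 1) :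
    (3 : F) • (p * p) + (12 : F) • (q * q') = 1 := by
  have n2 := half h2 hN
  have n3 := half' h2 hN
  have h1 : (1 : Matrix (Fin 2) (Fin 2) R) = !![1, 0; 0, 1] := by
    apply ext2 <;> simp
  rw [EE, mk_mul, mk_smul, h1] at h
  have h3 := (mk_inj h).1
  simp only [mul_assoc, mul_smul_comm, smul_mul_assoc, n3, smul_smul] at h3
  have e2 : (2 : F) * 2⁻¹ = 1 := mul_inv_cancel₀ h2
  rw [e2, mul_one] at h3
  linear_combination (norm := module) h3

theorem sq_aux {A : Type*} [Ring A] [Algebra F A] {x t D : A} (ht : t = (3 : F) • (x * x)) (tt : t * t = -1)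
    (hD : D * D = (3 : F) • 1) : (3 : F) • (-(x * t * D * x) * -(x * t * D * x)) = 1 := by
  have hxt : x * t = t * x := by rw [ht, mul_smul_comm, smul_mul_assoc, mul_assoc]
  calc (3 : F) • (-(x * t * D * x) * -(x * t * D * x)) = x * t * D * ((3 : F) • (x * x)) * t * D * x := by
        simp only [mul_smul_comm, smul_mul_assoc]
        congr 1
        noncomm_ring
    _ = x * t * D * (t * t) * D * x := by rw [← ht]; noncomm_ring
    _ = -(x * t * (D * D) * x) := by rw [tt]; noncomm_ring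
    _ = -((3 : F) • (x * t * x)) := by rw [hD, mul_smul_comm, smul_mul_assoc, mul_one]
    _ = -(((3 : F) • (x * x)) * t) := by rw [smul_mul_assoc, mul_assoc, ← hxt, ← mul_assoc]
    _ = 1 := by rw [← ht, tt, neg_neg]

theorem SD_sq {u v : F} (huv : u * v = 1) : (SD u v * SD u v : Matrix (Fin 2) (Fin 2) R) = (3 : F) • 1 := by
  have h1 : (1 : Matrix (Fin 2) (Fin 2) R) = !![1, 0; 0, 1] := by
    apply ext2 <;> simp
  rw [SD, mk_mul, h1, mk_smul]
  have e : ∀ (a b c d a' b' c' d' : R), a = a' → b = b' → c = c' → d = d' →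
      (!![a, b; c, d] : Matrix (Fin 2) (Fin 2) R) = !![a', b'; c', d'] := by
    rintro a b c d a' b' c' d' rfl rfl rfl rfl; rfl
  apply e <;> simp only [mul_smul_comm, smul_mul_assoc, mul_one, one_mul, mul_neg, neg_mul, neg_neg, smul_smul]
  · have : u * (2 * v) = 2 := by linear_combination 2 * huv
    linear_combination (norm := module) (2 * huv) • (1 : R)
  · module
  · module
  · have : (2 * v) * u = 2 := by linear_combination 2 * huv
    linear_combination (norm := module) (2 * huv) • (1 : R)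

/-- the equations -/
theorem Blk.eqs (h : Blk ω s x t d₀ d₁ d₂) {L : F} (L2 : L ^ 2 = 1)
    (r6 : (dg d₀ d₁ d₂ * (gm ω x * dg d₀ d₁ d₂ * (gm ω x * (gm ω x * gm ω x)))) ^ 3 = L • (gm ω x * gm ω x)) :
    ∃ X Z N p₀ p₁ p₂ q₀ q₁ q₂ : R, Shape (F := F) x t X Z N ∧ Eqs ω L X Z N p₀ p₁ p₂ q₀ q₁ q₂ := by
  obtain ⟨X, Z, N, S⟩ := h.shape
  have hω := h.hω
  have h2 := h.h2
  have h3 := h.h3
  obtain ⟨p₀, hp0⟩ : ∃ p₀, p₀ = (Z * X - X * Z) - (2 : F) • (X * N * X) - (2 : F) • (Z * N * Z) := ⟨_, rfl⟩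
  obtain ⟨p₁, hp1⟩ : ∃ p₁, p₁ = (Z * X - X * Z) - (2 * ω ^ 2) • (X * N * X) - (2 * ω) • (Z * N * Z) := ⟨_, rfl⟩
  obtain ⟨p₂, hp2⟩ : ∃ p₂, p₂ = (Z * X - X * Z) - (2 * ω) • (X * N * X) - (2 * ω ^ 2) • (Z * N * Z) := ⟨_, rfl⟩
  obtain ⟨q₀, hq0⟩ : ∃ q₀, q₀ = X * X + Z * N * X - X * N * Z := ⟨_, rfl⟩
  obtain ⟨q₁, hq1⟩ : ∃ q₁, q₁ = X * X + ω • (Z * N * X) - ω ^ 2 • (X * N * Z) := ⟨_, rfl⟩
  obtain ⟨q₂, hq2⟩ : ∃ q₂, q₂ = X * X + ω ^ 2 • (Z * N * X) - ω • (X * N * Z) := ⟨_, rfl⟩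
  have hE0 : -(x * t * (s • d₀) * x) = EE (F := F) p₀ q₀ q₀ p₀ N := by
    rw [h.e0, S.E_eq h2, hp0, hq0]
    congr 1 <;> module
  have hE1 : -(x * t * (s • d₁) * x) = EE (F := F) p₁ q₁ q₂ p₂ N := by
    rw [h.e1, S.E_eq h2, hp1, hp2, hq1, hq2]
  have hE2 : -(x * t * (s • d₂) * x) = EE (F := F) p₂ q₂ q₁ p₁ N := by
    rw [h.e2, S.E_eq h2, hp1, hp2, hq1, hq2]
  have hrel := rel_E hω (s := s) h.ht h.tt h.h00 h.h11 h.h22 r6 h.c0 h.c1 h.c2 hE0.symm hE1.symm hE2.symm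
  obtain ⟨e00, e12, e21, e01, e10, e22, e02, e20, e11⟩ :=
    nine_eqs (L := L) h2 h3 S.NN S.t_eq rfl rfl rfl rfl rfl rfl hrel
  have ω3 : ω * ω ^ 2 = 1 := by linear_combination (ω - 1) * hω
  have ω3' : ω ^ 2 * ω = 1 := by linear_combination (ω - 1) * hω
  refine ⟨X, Z, N, p₀, p₁, p₂, q₀, q₁, q₂, S, hω, h2, h3, L2, S.NN, S.XX, S.XZ, hp0, hp1, hp2, hq0, hq1, hq2,
    ?_, ?_, ?_, e00, e12, e21, e01, e10, e22, e02, e20, e11⟩
  · refine EE_sq (h2 := h2) (p' := p₀) S.NN ?_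
    rw [← hE0]
    exact sq_aux h.ht h.tt (by rw [h.e0, SD_sq (mul_one 1)])
  · refine EE_sq (h2 := h2) (p' := p₂) S.NN ?_
    rw [← hE1]
    exact sq_aux h.ht h.tt (by rw [h.e1, SD_sq ω3])
  · refine EE_sq (h2 := h2) (p' := p₁) S.NN ?_
    rw [← hE2]
    exact sq_aux h.ht h.tt (by rw [h.e2, SD_sq ω3'])

end blk

end gen

end Cfsg.Agent.H825.A7x
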