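import Cfsg.Agent.H825.A7x.Units

/-!
# From the multiplicity space of `3^{1+2}` to `2 × 2` matrices (helper825)
-/

set_option autoImplicit false
set_option linter.unusedSectionVars false
set_option linter.unusedSimpArgs false

namespace Cfsg.Agent.H825.A7x

open Matrix Cfsg.Agent.H890.A7

section map

variable {F : Type*} [Field F] {R S : Type*} [Ring R] [Algebra F R] [Ring S] [Algebra F S] {ω : F}

theorem map_dg' (θ : R ≃ₐ[F] S) (x y z : R) : θ.mapMatrix (dg x y z) = dg (θ x) (θ y) (θ z) := by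
  obtain ⟨k00, k01, k02, k10, k11, k12, k20, k21, k22⟩ := dg_entries x y z
  obtain ⟨r00, r01, r02, r10, r11, r12, r20, r21, r22⟩ := dg_entries (θ x) (θ y) (θ z)
  apply ext3 <;> simp only [AlgEquiv.mapMatrix_apply, Matrix.map_apply, r00, r01, r02, r10, r11, r12, r20, r21, r22,
    k00, k01, k02, k10, k11, k12, k20, k21, k22, map_zero]

theorem map_gm' (θ : R ≃ₐ[F] S) (x : R) : θ.mapMatrix (gm ω x) = gm ω (θ x) := by
  ext i j
  rw [AlgEquiv.mapMatrix_apply, Matrix.map_apply, gm, gm, Matrix.of_apply, Matrix.of_apply, map_smul]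

theorem map_a3' (θ : R ≃ₐ[F] S) : θ.mapMatrix (a3 ω) = a3 ω := by
  ext i j
  rw [AlgEquiv.mapMatrix_apply, Matrix.map_apply, a3_apply, a3_apply]
  split_ifs
  · rw [map_smul, map_one]
  · rw [map_zero]

theorem map_b3' (θ : R ≃ₐ[F] S) : θ.mapMatrix b3 = b3 := by
  ext i j
  rw [AlgEquiv.mapMatrix_apply, Matrix.map_apply, b3_apply, b3_apply]
  split_ifs
  · rw [map_one]
  · rw [map_zero]

end map

/-- the reduced data on the multiplicity space, `e = -1` -/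
structure Dat {F W : Type*} [Field F] [AddCommGroup W] [Module F W] (ω L : F) (x d₀ d₁ d₂ t : Module.End F W) :
    Prop where
  hω : ω ^ 2 + ω + 1 = 0
  h2 : (2 : F) ≠ 0
  h3 : (3 : F) ≠ 0
  L2 : L ^ 2 = 1
  ht : t = (3 : F) • (x * x)
  tt : t * t = -1
  t0 : t * d₀ = -(d₀ * t)
  t2 : t * d₂ = -(d₁ * t)
  t1 : t * d₁ = -(d₂ * t)
  h00 : d₀ * d₀ = -1
  h11 : d₁ * d₁ = -1
  h22 : d₂ * d₂ = -1
  h21 : d₂ * d₁ = d₀
  h02 : d₀ * d₂ = d₁
  h10 : d₁ * d₀ = d₂
  r6 : (dg d₀ d₁ d₂ * (gm ω x * dg d₀ d₁ d₂ * (gm ω x * (gm ω x * gm ω x)))) ^ 3 = L • (gm ω x * gm ω x)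
  irr : ∀ U : Submodule F W, (∀ u ∈ U, x u ∈ U) → (∀ u ∈ U, d₀ u ∈ U) → (∀ u ∈ U, d₁ u ∈ U) → (∀ u ∈ U, d₂ u ∈ U) →
    U = ⊥ ∨ U = ⊤
  comm : ∀ Z : Module.End F W, Z * x = x * Z → Z * d₀ = d₀ * Z → Z * d₁ = d₁ * Z → Z * d₂ = d₂ * Z → ∃ c : F, Z = c • 1

section quat

variable {F A : Type*} [Field F] [Ring A] [Algebra F A] {ω s : F} {d₀ d₁ d₂ : A}

theorem quat_units (hω : ω ^ 2 + ω + 1 = 0) (h3 : (3 : F) ≠ 0) (hs : s = ω - ω ^ 2) (h00 : d₀ * d₀ = -1)
    (h11 : d₁ * d₁ = -1) (h22 : d₂ * d₂ = -1) (h21 : d₂ * d₁ = d₀) (h02 : d₀ * d₂ = d₁) (h10 : d₁ * d₀ = d₂) :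
    ∃ f₁ f₂ : A, f₁ * f₁ = 0 ∧ f₂ * f₂ = 0 ∧ f₂ * f₁ + f₁ * f₂ = (2 : F) • 1 ∧
      s • d₀ = (f₂ * f₁ - 1) + f₁ + f₂ ∧ s • d₁ = (f₂ * f₁ - 1) + ω ^ 2 • f₁ + ω • f₂ ∧
      s • d₂ = (f₂ * f₁ - 1) + ω • f₁ + ω ^ 2 • f₂ := by
  have h01 : d₀ * d₁ = -d₂ := by
    rw [← h02, ← mul_assoc, h00, neg_mul, one_mul]
  have h20 : d₂ * d₀ = -d₁ := by
    have : d₂ * d₀ = d₂ * (d₂ * d₁) := by rw [h21]
    rw [this, ← mul_assoc, h22, neg_mul, one_mul]
  have h12 : d₁ * d₂ = -d₀ := by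
    have : d₁ * d₂ = d₁ * (d₁ * d₀) := by rw [h10]
    rw [this, ← mul_assoc, h11, neg_mul, one_mul]
  have hss : s * s = -3 := ss_eq hω hs
  have h33 : (3 : F)⁻¹ * 3⁻¹ * (s * s) = -3⁻¹ := by
    rw [hss, mul_assoc, mul_neg, inv_mul_cancel₀ h3, mul_neg, mul_one]
  have hi : (3 : F)⁻¹ * 3 = 1 := inv_mul_cancel₀ h3
  have ω2 : ω ^ 2 = -1 - ω := by linear_combination hω
  have F1 : ∀ a b c : F, (d₀ + a • d₁ + b • d₂) * (d₀ + c • d₁ + (-1 - c) • d₂) =
      (-1 - a * c + b * (1 + c)) • (1 : A) + (b * c + a * (1 + c)) • d₀ + (-1 - c - b) • d₁ + (a - c) • d₂ := by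
    intro a b c
    simp only [add_mul, mul_add, smul_mul_assoc, mul_smul_comm, h00, h11, h22, h21, h02, h10, h01, h20, h12]
    module
  obtain ⟨f₁, hf1⟩ : ∃ f₁, f₁ = (3⁻¹ * s : F) • (d₀ + ω • d₁ + (-1 - ω) • d₂) := ⟨_, rfl⟩
  obtain ⟨f₂, hf2⟩ : ∃ f₂, f₂ = (3⁻¹ * s : F) • (d₀ + (-1 - ω) • d₁ + (-1 - (-1 - ω)) • d₂) := ⟨_, rfl⟩
  have hs' : s = 2 * ω + 1 := by rw [hs]; linear_combination -hω
  have e3 : (3⁻¹ * s : F) * (3⁻¹ * s) = -3⁻¹ := by rw [← h33]; ring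
  have e21 : f₂ * f₁ = 1 + (3⁻¹ * s : F) • (d₀ + d₁ + d₂) := by
    rw [hf1, hf2, smul_mul_smul_comm, F1, e3, hs']
    match_scalars <;> grind
  have e11 : f₁ * f₁ = 0 := by
    rw [hf1, smul_mul_smul_comm, F1, e3]
    match_scalars <;> grind
  have e22 : f₂ * f₂ = 0 := by
    rw [hf2, smul_mul_smul_comm, F1, e3]
    match_scalars <;> grind
  have e12 : f₁ * f₂ = 1 - (3⁻¹ * s : F) • (d₀ + d₁ + d₂) := by
    rw [hf1, hf2, smul_mul_smul_comm, F1, e3, hs']
    match_scalars <;> grind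
  refine ⟨f₁, f₂, e11, e22, ?_, ?_, ?_, ?_⟩
  · rw [e21, e12]
    module
  · rw [e21, hf1, hf2]
    match_scalars <;> grind
  · rw [e21, hf1, hf2]
    match_scalars <;> grind
  · rw [e21, hf1, hf2]
    match_scalars <;> grind

end quat

section theta

variable {F W : Type*} [Field F] [AddCommGroup W] [Module F W] {ω s : F}

theorem finrank_of_blk {M : Type*} [AddCommGroup M] [Module F M] [FiniteDimensional F W] [FiniteDimensional F M]
    (hW : Module.finrank F W = 4) (θ : Module.End F W ≃ₐ[F] Matrix (Fin 2) (Fin 2) (Module.End F M)) :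
    Module.finrank F M = 2 := by
  have h1 := θ.toLinearEquiv.finrank_eq
  have h2 : Module.finrank F (Module.End F W) = Module.finrank F W * Module.finrank F W := Module.finrank_linearMap F F W W
  have h3 : Module.finrank F (Module.End F M) = Module.finrank F M * Module.finrank F M := Module.finrank_linearMap F F M M
  rw [Module.finrank_matrix, h2, h3, hW, Fintype.card_fin] at h1
  have h4 : Module.finrank F M * Module.finrank F M = 2 * 2 := by omega
  exact Nat.mul_self_inj.1 h4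

/-- `End W` as `M₂(M₂(F))` -/
theorem exists_theta [FiniteDimensional F W] (hW : Module.finrank F W = 4) (hω : ω ^ 2 + ω + 1 = 0) (h2 : (2 : F) ≠ 0)
    (h3 : (3 : F) ≠ 0) (hs : s = ω - ω ^ 2) {d₀ d₁ d₂ : Module.End F W} (h00 : d₀ * d₀ = -1)
    (h11 : d₁ * d₁ = -1) (h22 : d₂ * d₂ = -1) (h21 : d₂ * d₁ = d₀) (h02 : d₀ * d₂ = d₁) (h10 : d₁ * d₀ = d₂) :
    ∃ θ : Module.End F W ≃ₐ[F] Matrix (Fin 2) (Fin 2) (Matrix (Fin 2) (Fin 2) F),
      s • θ d₀ = SD (1 : F) 1 ∧ s • θ d₁ = SD ω (ω ^ 2) ∧ s • θ d₂ = SD (ω ^ 2) ω := by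
  obtain ⟨f₁, f₂, k1, k2, k3, k4, k5, k6⟩ := quat_units hω h3 hs h00 h11 h22 h21 h02 h10
  obtain ⟨M, θ₁, t1, t2⟩ := exists_two h2 k1 k2 k3
  have hM := finrank_of_blk hW θ₁
  let b : Module.Basis (Fin 2) F M := Module.finBasisOfFinrankEq F M hM
  obtain ⟨φ, -⟩ : ∃ φ : Module.End F M ≃ₐ[F] Matrix (Fin 2) (Fin 2) F, True := ⟨LinearMap.toMatrixAlgEquiv b, trivial⟩
  refine ⟨θ₁.trans φ.mapMatrix, ?_⟩
  have hmk : ∀ a b c d : Module.End F M, φ.mapMatrix (!![a, b; c, d] : Matrix (Fin 2) (Fin 2) (Module.End F M)) =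
      !![φ a, φ b; φ c, φ d] := by
    intro a b c d
    apply ext2 <;> rfl
  have u1 : (θ₁.trans φ.mapMatrix) f₁ = !![0, 0; (2 : F) • 1, 0] := by
    rw [AlgEquiv.trans_apply, t1, hmk, map_smul, map_one, map_zero]
  have u2 : (θ₁.trans φ.mapMatrix) f₂ = !![0, 1; 0, 0] := by
    rw [AlgEquiv.trans_apply, t2, hmk, map_one, map_zero]
  have h1 : (1 : Matrix (Fin 2) (Fin 2) (Matrix (Fin 2) (Fin 2) F)) = !![1, 0; 0, 1] := by
    apply ext2 <;> simp
  have e : ∀ (a b c d a' b' c' d' : Matrix (Fin 2) (Fin 2) F), a = a' → b = b' → c = c' → d = d' →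
      (!![a, b; c, d] : Matrix (Fin 2) (Fin 2) _) = !![a', b'; c', d'] := by
    rintro a b c d a' b' c' d' rfl rfl rfl rfl; rfl
  refine ⟨?_, ?_, ?_⟩
  · rw [← map_smul, k4, map_add, map_add, map_sub, map_mul, map_one, u1, u2, SD, mk_mul, h1, sub_eq_add_neg, mk_neg,
      mk_add, mk_add, mk_add]
    apply e <;> simp only [mul_zero, zero_mul, zero_add, add_zero, one_mul, mul_smul_comm, mul_one, neg_zero] <;> module
  · rw [← map_smul, k5, map_add, map_add, map_sub, map_mul, map_one, map_smul, map_smul, u1, u2, SD, mk_mul, h1,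
      sub_eq_add_neg, mk_neg, mk_smul, mk_smul, mk_add, mk_add, mk_add]
    apply e <;> simp only [mul_zero, zero_mul, zero_add, add_zero, one_mul, mul_smul_comm, mul_one, neg_zero,
      smul_zero] <;> module
  · rw [← map_smul, k6, map_add, map_add, map_sub, map_mul, map_one, map_smul, map_smul, u1, u2, SD, mk_mul, h1,
      sub_eq_add_neg, mk_neg, mk_smul, mk_smul, mk_add, mk_add, mk_add]
    apply e <;> simp only [mul_zero, zero_mul, zero_add, add_zero, one_mul, mul_smul_comm, mul_one, neg_zero,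
      smul_zero] <;> module

theorem Dat.main [FiniteDimensional F W] {L : F} {x d₀ d₁ d₂ t : Module.End F W} (D : Dat ω L x d₀ d₁ d₂ t)
    (hW : Module.finrank F W = 4) : ∃ (θ : Module.End F W ≃ₐ[F] Matrix (Fin 2) (Fin 2) (Matrix (Fin 2) (Fin 2) F))
      (X Z N p₀ p₁ p₂ q₀ q₁ q₂ : Matrix (Fin 2) (Fin 2) F), Blk ω (ω - ω ^ 2) (θ x) (θ t) (θ d₀) (θ d₁) (θ d₂) ∧
        Shape (F := F) (θ x) (θ t) X Z N ∧ Eqs ω L X Z N p₀ p₁ p₂ q₀ q₁ q₂ ∧ Irr X Z N := by
  obtain ⟨θ, s0, s1, s2⟩ := exists_theta hW D.hω D.h2 D.h3 rfl D.h00 D.h11 D.h22 D.h21 D.h02 D.h10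
  have B : Blk ω (ω - ω ^ 2) (θ x) (θ t) (θ d₀) (θ d₁) (θ d₂) := by
    refine ⟨D.hω, D.h2, D.h3, rfl, ?_, ?_, ?_, ?_, ?_, ?_, ?_, ?_, s0, s1, s2⟩
    · rw [D.ht, map_smul, map_mul]
    · rw [← map_mul, D.tt, map_neg, map_one]
    · rw [← map_mul, D.t0, map_neg, map_mul]
    · rw [← map_mul, D.t2, map_neg, map_mul]
    · rw [← map_mul, D.t1, map_neg, map_mul]
    · rw [← map_mul, D.h00, map_neg, map_one]
    · rw [← map_mul, D.h11, map_neg, map_one]
    · rw [← map_mul, D.h22, map_neg, map_one]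
  obtain ⟨X, Z, N, p₀, p₁, p₂, q₀, q₁, q₂, S, E⟩ := B.eqs D.L2 (by
    have h1 := congrArg (θ.mapMatrix (m := Fin 3)) D.r6
    rw [map_smul, map_pow, map_mul, map_mul, map_mul, map_mul, map_mul, map_dg', map_gm'] at h1
    exact h1)
  have hs := theta_ne' D.hω D.h3
  obtain ⟨s, hs'⟩ : ∃ s, s = ω - ω ^ 2 := ⟨_, rfl⟩
  rw [← hs'] at hs s0 s1 s2
  have m0 : θ d₀ = s⁻¹ • SD (1 : F) 1 := by rw [← s0, smul_smul, inv_mul_cancel₀ hs, one_smul]
  have m1 : θ d₁ = s⁻¹ • SD ω (ω ^ 2) := by rw [← s1, smul_smul, inv_mul_cancel₀ hs, one_smul]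
  have m2 : θ d₂ = s⁻¹ • SD (ω ^ 2) ω := by rw [← s2, smul_smul, inv_mul_cancel₀ hs, one_smul]
  refine ⟨θ, X, Z, N, p₀, p₁, p₂, q₀, q₁, q₂, B, S, E, ?_, ?_⟩
  · intro Y hX hZ hN
    obtain ⟨Y', hY'⟩ := θ.surjective !![Y, 0; 0, Y]
    have hsd : ∀ u v : F, (!![Y, 0; 0, Y] : Matrix (Fin 2) (Fin 2) (Matrix (Fin 2) (Fin 2) F)) * (s⁻¹ • SD u v) =
        (s⁻¹ • SD u v) * !![Y, 0; 0, Y] := by
      intro u v
      rw [SD, mk_smul, mk_mul, mk_mul]
      simp only [zero_mul, mul_zero, add_zero, zero_add, mul_smul_comm, smul_mul_assoc, mul_one, one_mul, mul_neg,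
        neg_mul, smul_zero, neg_zero]
    have hx : (!![Y, 0; 0, Y] : Matrix (Fin 2) (Fin 2) (Matrix (Fin 2) (Fin 2) F)) * θ x = θ x * !![Y, 0; 0, Y] := by
      have a1 : Y * (Z * N) = Z * N * Y := by rw [← mul_assoc, hZ, mul_assoc, hN, mul_assoc]
      have a2 : Y * (N * Z) = N * Z * Y := by rw [← mul_assoc, hN, mul_assoc, hZ, mul_assoc]
      have a3 : Y * (N * X * N) = N * X * N * Y := by
        rw [← mul_assoc, ← mul_assoc, hN, mul_assoc N Y, hX, mul_assoc N, mul_assoc X, hN]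
        simp only [mul_assoc]
      rw [S.x_eq, mk_mul, mk_mul]
      simp only [zero_mul, mul_zero, add_zero, zero_add, mul_smul_comm, smul_mul_assoc, mul_neg, neg_mul, a1, a2, a3, hX,
        smul_zero, neg_zero]
    obtain ⟨c, hc⟩ := D.comm Y' (θ.injective (by rw [map_mul, map_mul, hY', hx]))
      (θ.injective (by rw [map_mul, map_mul, hY', m0, hsd])) (θ.injective (by rw [map_mul, map_mul, hY', m1, hsd]))
      (θ.injective (by rw [map_mul, map_mul, hY', m2, hsd]))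
    refine ⟨c, ?_⟩
    rw [hc, map_smul, map_one] at hY'
    have h1 := congrFun (congrFun hY' 0) 0
    rw [Matrix.smul_apply, Matrix.one_apply_eq] at h1
    exact h1.symm
  · rintro v hv ⟨a, ha⟩ ⟨b, hb⟩ ⟨c, hc⟩
    obtain ⟨G, hG⟩ : ∃ G : Matrix (Fin 2) (Fin 2) F, ∀ i j, G i j = if j = 0 then v i else 0 :=
      ⟨Matrix.of fun i j => if j = 0 then v i else 0, fun i j => rfl⟩
    have key : ∀ (Y : Matrix (Fin 2) (Fin 2) F) (c : F), Y *ᵥ v = c • v → Y * G = c • G := by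
      intro Y c hY
      ext i j
      rw [Matrix.smul_apply, hG, Matrix.mul_apply]
      by_cases hj : j = 0
      · have h1 := congrFun hY i
        rw [if_pos hj, ← Pi.smul_apply, ← h1, Matrix.mulVec, dotProduct]
        apply Finset.sum_congr rfl
        intro l _
        rw [hG, if_pos hj]
      · rw [if_neg hj, smul_zero]
        apply Finset.sum_eq_zero
        intro l _
        rw [hG, if_neg hj, mul_zero]
    have kX := key X a ha
    have kZ := key Z b hb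
    have kN := key N c hc
    obtain ⟨y, hy⟩ := θ.surjective !![G, 0; 0, G]
    -- invariance
    have inv : ∀ (T : Module.End F W) (A B C E : Matrix (Fin 2) (Fin 2) F) (a' b' c' d' : F), θ T = !![A, B; C, E] →
        A * G = a' • G → B * G = b' • G → C * G = c' • G → E * G = d' • G →
        ∀ u ∈ LinearMap.range y, T u ∈ LinearMap.range y := by
      intro T A B C E a' b' c' d' hT hA hB hC hE
      obtain ⟨T', hT'⟩ := θ.surjective !![a' • 1, b' • 1; c' • 1, d' • 1]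
      have h1 : T * y = y * T' := by
        apply θ.injective
        rw [map_mul, map_mul, hT, hy, hT', mk_mul, mk_mul]
        simp only [zero_mul, mul_zero, add_zero, zero_add, hA, hB, hC, hE, mul_smul_comm, mul_one, smul_zero]
      rintro _ ⟨w, rfl⟩
      exact ⟨T' w, (congrArg (fun S : Module.End F W => S w) h1).symm⟩
    have invd : ∀ (T : Module.End F W) (u v : F), θ T = s⁻¹ • SD u v → ∀ w ∈ LinearMap.range y, T w ∈ LinearMap.range y := by
      intro T u v hT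
      refine inv T _ _ _ _ s⁻¹ (s⁻¹ * u) (s⁻¹ * (2 * v)) (-s⁻¹) (by rw [hT, SD, mk_smul]) ?_ ?_ ?_ ?_
      · rw [smul_mul_assoc, one_mul]
      · rw [smul_smul, smul_mul_assoc, one_mul]
      · rw [smul_smul, smul_mul_assoc, one_mul]
      · rw [smul_mul_assoc, neg_mul, one_mul, smul_neg, neg_smul]
    have h1 := D.irr (LinearMap.range y) (inv x _ _ _ _ a (b * c) (-(2 * (c * b))) (2 * (c * a * c)) S.x_eq kX
      (by rw [mul_assoc, kN, mul_smul_comm, kZ, smul_smul, mul_comm c b])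
      (by rw [neg_mul, smul_mul_assoc, mul_assoc, kZ, mul_smul_comm, kN, smul_smul, smul_smul, neg_smul]; congr 2; ring)
      (by rw [smul_mul_assoc, mul_assoc, kN, mul_smul_comm, mul_assoc, kX, mul_smul_comm, kN, smul_smul, smul_smul, smul_smul]
          congr 1; ring)) (invd _ _ _ m0) (invd _ _ _ m1) (invd _ _ _ m2)
    rcases h1 with h1 | h1
    · rw [LinearMap.range_eq_bot] at h1
      rw [h1, map_zero] at hy
      apply hv
      funext i
      have h2 := congrFun (congrFun (congrFun (congrFun hy 0) 0) i) 0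
      have h3 : G i 0 = 0 := h2.symm
      rw [hG, if_pos rfl] at h3
      exact h3
    · have h2 : Function.Injective y := by
        rw [LinearMap.injective_iff_surjective]
        exact LinearMap.range_eq_top.1 h1
      obtain ⟨z, hz⟩ := θ.surjective !![!![0, 0; 1, 0], 0; 0, !![0, 0; 1, 0]]
      have h3 : y * z = 0 := by
        apply θ.injective
        have h4 : G * (!![0, 0; 1, 0] : Matrix (Fin 2) (Fin 2) F) = 0 := by
          ext i j
          rw [Matrix.mul_apply, Fin.sum_univ_two, hG, hG, if_pos rfl, if_neg (by decide)]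
          fin_cases j <;> simp
        rw [map_mul, hy, hz, map_zero, mk_mul, h4]
        apply ext2 <;> simp [h4]
      have h5 : z = 0 := by
        apply LinearMap.ext
        intro w
        apply h2
        rw [LinearMap.zero_apply, map_zero]
        exact congrArg (fun S : Module.End F W => S w) h3
      rw [h5, map_zero] at hz
      have h6 := congrFun (congrFun (congrFun (congrFun hz 0) 0) 1) 0
      exact zero_ne_one (α := F) h6

end theta

end Cfsg.Agent.H825.A7x
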