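import Cfsg.Agent.H825.A7x.Red2

/-!
# Block decompositions of endomorphism algebras (helper825)

* `blkE` : `End W ≃ₐ M_n(End M)` from embeddings `em i : M → W` and projections `pj i : W → M`;
* `exists_two` : from `f₁² = f₂² = 0`, `f₂ f₁ + f₁ f₂ = 2` an isomorphism `End W ≃ₐ M₂(End M)`.
-/

set_option autoImplicit false
set_option linter.unusedSectionVars false

namespace Cfsg.Agent.H825.A7x

open Matrix

section gen

variable {F W M : Type*} [Field F] [AddCommGroup W] [Module F W] [AddCommGroup M] [Module F M]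
  {n : Type*} [Fintype n] [DecidableEq n]

/-- block decomposition -/
def blkE (em : n → (M →ₗ[F] W)) (pj : n → (W →ₗ[F] M)) (h1 : ∀ i j w, pj i (em j w) = if i = j then w else 0)
    (h2 : ∀ w, ∑ i, em i (pj i w) = w) : Module.End F W ≃ₐ[F] Matrix n n (Module.End F M) where
  toFun T := Matrix.of fun i j => pj i ∘ₗ T ∘ₗ em j
  invFun A := ∑ i, ∑ j, em i ∘ₗ A i j ∘ₗ pj j
  left_inv T := by
    apply LinearMap.ext
    intro w
    simp only [LinearMap.sum_apply, LinearMap.comp_apply, Matrix.of_apply]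
    rw [Finset.sum_comm]
    simp only [h2, ← map_sum]
  right_inv A := by
    ext i j w
    simp only [Matrix.of_apply, LinearMap.comp_apply, LinearMap.sum_apply, map_sum, h1]
    rw [Finset.sum_eq_single i]
    · rw [Finset.sum_eq_single j]
      · rw [if_pos rfl, if_pos rfl]
      · intro l _ hl
        rw [if_pos rfl, if_neg hl, map_zero]
      · intro h; exact absurd (Finset.mem_univ _) h
    · intro l _ hl
      apply Finset.sum_eq_zero
      intro m _
      rw [if_neg (Ne.symm hl)]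
    · intro h; exact absurd (Finset.mem_univ _) h
  map_mul' S T := by
    ext i j w
    simp only [Matrix.of_apply, LinearMap.comp_apply, Matrix.mul_apply, LinearMap.sum_apply, Module.End.mul_apply]
    rw [← map_sum, ← map_sum, h2]
  map_add' S T := by
    ext i j w
    simp only [Matrix.of_apply, LinearMap.comp_apply, Matrix.add_apply, LinearMap.add_apply, map_add]
  commutes' c := by
    ext i j w
    simp only [Matrix.of_apply, LinearMap.comp_apply, Module.algebraMap_end_apply, map_smul, h1, Matrix.algebraMap_matrix_apply]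
    by_cases h : i = j
    · rw [if_pos h, if_pos h]; rfl
    · rw [if_neg h, if_neg h, smul_zero]; rfl

theorem blkE_apply {em : n → (M →ₗ[F] W)} {pj : n → (W →ₗ[F] M)} (h1 : ∀ i j w, pj i (em j w) = if i = j then w else 0)
    (h2 : ∀ w, ∑ i, em i (pj i w) = w) (T : Module.End F W) (i j : n) (w : M) :
    blkE em pj h1 h2 T i j w = pj i (T (em j w)) := rfl

end gen

section two

variable {F W : Type*} [Field F] [AddCommGroup W] [Module F W]

/-- from two nilpotent elements -/
theorem exists_two (h2 : (2 : F) ≠ 0) {f₁ f₂ : Module.End F W} (h11 : f₁ * f₁ = 0) (h22 : f₂ * f₂ = 0)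
    (h12 : f₂ * f₁ + f₁ * f₂ = (2 : F) • 1) : ∃ (M : Submodule F W)
      (θ : Module.End F W ≃ₐ[F] Matrix (Fin 2) (Fin 2) (Module.End F M)),
      θ f₁ = !![0, 0; (2 : F) • 1, 0] ∧ θ f₂ = !![0, 1; 0, 0] := by
  have a11 : ∀ w, f₁ (f₁ w) = 0 := fun w => congrArg (fun T : Module.End F W => T w) h11
  have a22 : ∀ w, f₂ (f₂ w) = 0 := fun w => congrArg (fun T : Module.End F W => T w) h22
  have a12 : ∀ w, f₂ (f₁ w) + f₁ (f₂ w) = (2 : F) • w := fun w => congrArg (fun T : Module.End F W => T w) h12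
  let M : Submodule F W := LinearMap.ker f₂
  have hM : ∀ w : M, f₂ (w : W) = 0 := fun w => w.2
  have hM1 : ∀ w : M, f₂ (f₁ (w : W)) = (2 : F) • (w : W) := fun w => by
    rw [← a12, hM, map_zero, add_zero]
  let em : Fin 2 → (M →ₗ[F] W) := fun i => if i = 0 then M.subtype else (2 : F)⁻¹ • (f₁ ∘ₗ M.subtype)
  let pj : Fin 2 → (W →ₗ[F] M) := fun i => if i = 0 then LinearMap.codRestrict M ((2 : F)⁻¹ • (f₂ ∘ₗ f₁)) (fun w => by
      show f₂ ((2 : F)⁻¹ • f₂ (f₁ w)) = 0
      rw [map_smul, a22, smul_zero])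
    else LinearMap.codRestrict M f₂ (fun w => a22 w)
  have em0 : ∀ w, em 0 w = w := fun w => rfl
  have em1 : ∀ w, em 1 w = (2 : F)⁻¹ • f₁ w := fun w => rfl
  have pj0 : ∀ w, (pj 0 w : W) = (2 : F)⁻¹ • f₂ (f₁ w) := fun w => rfl
  have pj1 : ∀ w, (pj 1 w : W) = f₂ w := fun w => rfl
  have h1 : ∀ i j w, pj i (em j w) = if i = j then w else 0 := by
    intro i j w
    apply Subtype.ext
    fin_cases i <;> fin_cases j
    · show (pj 0 (em 0 w) : W) = w
      rw [pj0, em0, hM1, smul_smul, inv_mul_cancel₀ h2, one_smul]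
    · show (pj 0 (em 1 w) : W) = 0
      rw [pj0, em1, map_smul, map_smul, a11, map_zero, smul_zero, smul_zero]
    · show (pj 1 (em 0 w) : W) = 0
      rw [pj1, em0, hM]
    · show (pj 1 (em 1 w) : W) = w
      rw [pj1, em1, map_smul, hM1, smul_smul, inv_mul_cancel₀ h2, one_smul]
  have h2' : ∀ w, ∑ i, em i (pj i w) = w := by
    intro w
    rw [Fin.sum_univ_two, em0, em1, pj0, pj1, ← smul_add, a12, smul_smul, inv_mul_cancel₀ h2, one_smul]
  refine ⟨M, blkE em pj h1 h2', ?_, ?_⟩
  · ext i j w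
    rw [blkE_apply]
    fin_cases i <;> fin_cases j
    · show (pj 0 (f₁ (em 0 w)) : W) = ((0 : Module.End F M) w : W)
      rw [pj0, em0, a11, map_zero, smul_zero]; rfl
    · show (pj 0 (f₁ (em 1 w)) : W) = ((0 : Module.End F M) w : W)
      rw [pj0, em1, map_smul, a11, smul_zero, map_zero, map_zero, smul_zero]; rfl
    · show (pj 1 (f₁ (em 0 w)) : W) = (((2 : F) • 1 : Module.End F M) w : W)
      rw [pj1, em0, hM1]; rfl
    · show (pj 1 (f₁ (em 1 w)) : W) = ((0 : Module.End F M) w : W)
      rw [pj1, em1, map_smul, a11, smul_zero, map_zero]; rfl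
  · ext i j w
    rw [blkE_apply]
    fin_cases i <;> fin_cases j
    · show (pj 0 (f₂ (em 0 w)) : W) = ((0 : Module.End F M) w : W)
      rw [pj0, em0, hM, map_zero, map_zero, smul_zero]; rfl
    · show (pj 0 (f₂ (em 1 w)) : W) = ((1 : Module.End F M) w : W)
      rw [pj0, em1, map_smul, hM1, smul_smul, inv_mul_cancel₀ h2, one_smul, hM1, smul_smul, inv_mul_cancel₀ h2,
        one_smul]; rfl
    · show (pj 1 (f₂ (em 0 w)) : W) = ((0 : Module.End F M) w : W)
      rw [pj1, em0, hM, map_zero]; rfl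
    · show (pj 1 (f₂ (em 1 w)) : W) = ((0 : Module.End F M) w : W)
      rw [pj1, a22]; rfl

end two

end Cfsg.Agent.H825.A7x
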